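import Cfsg.Agent.FewCl.Table
import Cfsg.Agent.Block.PrimeSylow
import Cfsg.Agent.SCS.Inv
import Cfsg.Agent.PrimeOne.DegP
import Cfsg.Agent.S3996

/-! The table of a simple group satisfies the constraints. -/

namespace Cfsg.Lib.FewCl

open Subgroup Finset
open scoped Classical

variable {G : Type*} [Group G] [Fintype G]

theorem card_mul_le {g : G} {n : ℕ} (hn : n.Coprime (orderOf g)) :
    (univ.filter fun y : G => Commute g y ∧ y ^ n = 1).card * orderOf g ≤ cc g := by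
  rw [← Nat.card_zpowers, Nat.card_eq_fintype_card, ← card_univ, ← card_product, cc,
    Nat.card_eq_fintype_card, Fintype.card_subtype]
  refine card_le_card_of_injOn (fun x => x.1 * x.2) (fun x hx => ?_) fun x hx y hy e => ?_
  · simp only [coe_product, Set.mem_prod, coe_filter, mem_univ, true_and, Set.mem_ofPred_eq] at hx ⊢
    exact mul_mem (mem_centralizer_singleton_iff.2 hx.1.1.eq.symm)
      (cent_le_of_mem (mem_zpowers g) |> fun _ => by
        obtain ⟨k, hk⟩ := x.2.2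
        rw [mem_centralizer_singleton_iff, ← hk]
        exact (Commute.zpow_left (Commute.refl g) k).eq)
  · simp only [coe_product, Set.mem_prod, coe_filter, mem_univ, true_and, Set.mem_ofPred_eq] at hx hy e
    have c1 : ∀ (y : G) (a : zpowers g), Commute g y → Commute y a := fun y a h => by
      obtain ⟨k, hk⟩ := a.2
      rw [← hk]; exact h.symm.zpow_right k
    have h1 : x.2 ^ n = y.2 ^ n := by
      have := congrArg (· ^ n) e
      simp only [(c1 _ _ hx.1.1).mul_pow, (c1 _ _ hy.1.1).mul_pow, hx.1.2, hy.1.2, one_mul] at this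
      exact Subtype.ext this
    have h2 : x.2 = y.2 := (powCoprime (G := zpowers g)
      (by rw [Nat.card_zpowers]; exact hn.symm)).injective h1
    rw [h2] at e
    exact Prod.ext (mul_right_cancel e) h2

theorem sect_tab {g : G} (hg : g ≠ 1) {n : ℕ} (h1 : n ∣ cc g) (h2 : n.Coprime (lb g)) :
    ∃ S ≤ tab G, (∀ y ∈ S, lb g ∣ y.1 ∧ y.1 ≠ lb g ∧ y.2 ∣ cc g ∧ (y.1 / lb g).Coprime (lb g)) ∧
      n ∣ 1 + sm S (cc g) (fun _ => True) ∧ (1 + sm S (cc g) fun _ => True) * lb g ≤ cc g := by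
  have hn := coprime_ord h2
  set p : G → Prop := fun h => ∃ y, y ≠ 1 ∧ (Commute g y ∧ y ^ n = 1) ∧ IsConj (g * y) h with hp
  have hp1 : ∀ a b, IsConj a b → p a → p b := fun a b e ⟨y, h3, h4, h5⟩ => ⟨y, h3, h4, h5.trans e⟩
  have hco : ∀ y : G, y ^ n = 1 → (orderOf g).Coprime (orderOf y) := fun y hy =>
    (hn.coprime_dvd_left (orderOf_dvd_of_pow_eq_one hy)).symm
  have hle : ∀ y : G, Commute g y → y ^ n = 1 →
      centralizer ({g * y} : Set G) ≤ centralizer ({g} : Set G) := fun y h3 h4 =>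
    cent_le_of_mem (mem_zpowers_mul h3 h4 hn)
  obtain ⟨k, hk1, hk2⟩ : ∃ k, k ≡ 0 [MOD n] ∧ k ≡ 1 [MOD orderOf g] := (Nat.chineseRemainder hn 0 1).2 |>
    fun h => ⟨_, h⟩
  have hk : ∀ y : G, Commute g y → y ^ n = 1 → (g * y) ^ k = g := fun y h3 h4 => by
    rw [h3.mul_pow, pow_eq_pow_iff_modEq.2 hk2, pow_one, (orderOf_dvd_iff_pow_eq_one.1
      ((orderOf_dvd_of_pow_eq_one h4).trans (Nat.modEq_zero_iff_dvd.1 hk1))), mul_one]
  have key : (univ.filter fun y : G => Commute g y ∧ y ^ n = 1).card =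
      1 + sm (TS p) (cc g) fun _ => True := by
    rw [card_one_add (q := fun y => Commute g y ∧ y ^ n = 1) (by simp) fun _ _ => Iff.rfl,
      card_eq_sum_card_fiberwise (t := CS p) (f := fun y => ConjClasses.mk (g * y)) fun y hy =>
        mem_CS.2 ⟨y, (mem_filter.1 hy).2.1, (mem_filter.1 hy).2.2, isConj_rp _⟩,
      sm, Multiset.filter_eq_self.2 fun _ _ => trivial, TS, Multiset.map_map]
    refine congrArg _ (sum_congr rfl fun C hC => ?_)
    obtain ⟨y, h3, ⟨h4, h5⟩, h6⟩ := mem_CS.1 hC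
    have hy : y ∈ centralizer ({g} : Set G) := mem_centralizer_singleton_iff.2 h4.eq.symm
    have e1 : cc (⟨y, hy⟩ : centralizer ({g} : Set G)) = cc (g * y) := by
      rw [cc, cc, ← Nat.card_congr (subgroupOfEquivOfLe (hle y h4 h5)).toEquiv]
      congr 3
      ext u
      have hu := mem_centralizer_singleton_iff.1 u.2
      simp only [mem_centralizer_singleton_iff, mem_subgroupOf, Subtype.ext_iff, Subgroup.coe_mul]
      rw [← mul_assoc, hu, mul_assoc, mul_assoc, mul_right_inj]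
    have e2 := card_class (⟨y, hy⟩ : centralizer ({g} : Set G))
    rw [e1] at e2
    simp only [Function.comp, ← ent_conj h6]
    refine Eq.trans ?_ e2
    symm
    refine card_bij (fun u _ => (u : G)) (fun u hu => ?_) (fun _ _ _ _ e => Subtype.ext e) fun z hz => ?_
    · simp only [mem_filter, mem_univ, true_and] at hu
      obtain ⟨c, hc⟩ := isConj_iff.1 hu
      have hc1 : (c : G) * y * (c : G)⁻¹ = u := congrArg Subtype.val hc
      have hc2 : IsConj y (u : G) := isConj_iff.2 ⟨c, hc1⟩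
      have hc3 := mem_centralizer_singleton_iff.1 c.2
      simp only [mem_filter, mem_univ, true_and]
      refine ⟨⟨(ne_one_conj hc2).1 h3, (mem_centralizer_singleton_iff.1 u.2).symm, by
        rw [← hc1, conj_pow, h5, mul_one, mul_inv_cancel]⟩, ?_⟩
      rw [← mk_rp C]
      refine ConjClasses.mk_eq_mk_iff_isConj.2 ((isConj_iff.2 ⟨c, ?_⟩ : IsConj (g * y) _).symm.trans h6)
      rw [← hc1, ← mul_assoc, hc3]; group
    · simp only [mem_filter, mem_univ, true_and] at hz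
      obtain ⟨⟨-, h7, h8⟩, h9⟩ := hz
      obtain ⟨c, hc⟩ := isConj_iff.1 (h6.trans (ConjClasses.mk_eq_mk_iff_isConj.1 ((mk_rp C).trans h9.symm)))
      have hc1 : c * g * c⁻¹ = g := by
        have := congrArg (· ^ k) hc
        simpa only [conj_pow, hk y h4 h5, hk z h7 h8] using this
      have hc2 : c * g = g * c := by rw [← mul_inv_eq_iff_eq_mul, hc1]
      refine ⟨⟨z, mem_centralizer_singleton_iff.2 h7.eq.symm⟩, ?_, rfl⟩
      simp only [mem_filter, mem_univ, true_and]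
      refine isConj_iff.2 ⟨⟨c, mem_centralizer_singleton_iff.2 hc2⟩, Subtype.ext ?_⟩
      rw [← mul_assoc, hc2, mul_assoc, mul_assoc, mul_right_inj] at hc
      simpa [mul_assoc] using hc
  refine ⟨TS p, TS_mono ?_, fun x hx => ?_, ?_, ?_⟩
  · rintro h ⟨y, h3, ⟨h4, h5⟩, h6⟩
    refine (ne_one_conj h6).1 fun h7 => hg ?_
    rw [← hk y h4 h5, h7, one_pow]
  · obtain ⟨h, ⟨y, h3, ⟨h4, h5⟩, h6⟩, rfl⟩ := (mem_TS hp1).1 hx
    rw [← ent_conj h6]
    have a1 := one_lt_lb h3
    have a2 := one_lt_lb hg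
    simp only [ent, lb_mul h4 (hco y h5), Nat.mul_div_cancel_left _ (zero_lt_one.trans a2)]
    exact ⟨Dvd.intro _ rfl, by nlinarith, card_dvd_of_le (hle y h4 h5),
      ((hco y h5).symm.coprime_dvd_left (lb_dvd y)).coprime_dvd_right (lb_dvd g)⟩
  · rw [← key]
    convert Solv.Frob.dvd_card_pow_eq_one (G := centralizer ({g} : Set G)) h1
    rw [Nat.card_eq_fintype_card, Fintype.card_subtype]
    symm
    refine card_bij (fun u _ => (u : G)) (fun u hu => mem_filter.2 ⟨mem_univ _,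
      (mem_centralizer_singleton_iff.1 u.2).symm, congrArg Subtype.val (mem_filter.1 hu).2⟩)
      (fun _ _ _ _ e => Subtype.ext e) fun z hz => ⟨⟨z, mem_centralizer_singleton_iff.2
        (mem_filter.1 hz).2.1.eq.symm⟩, mem_filter.2 ⟨mem_univ _, Subtype.ext (mem_filter.1 hz).2.2⟩, rfl⟩
  · rw [← key]
    exact le_trans (Nat.mul_le_mul_left _ (Nat.le_of_dvd (orderOf_pos g) (lb_dvd g))) (card_mul_le hn)

theorem three_tab : 3 * sm (tab G) (Nat.card G) (fun x => 3 ∣ x.1) ≤ Nat.card G * cn (tab G) 3 := by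
  obtain ⟨a, n, hn, hN⟩ := Nat.exists_eq_pow_mul_and_not_dvd (Nat.card_pos (α := G)).ne' 3 (by norm_num)
  have hc : n.Coprime (3 ^ a) := ((Nat.Prime.coprime_iff_not_dvd Nat.prime_three).2 hn).symm.pow_right a
  obtain ⟨k, hk1, hk2⟩ : ∃ k, k ≡ 0 [MOD n] ∧ k ≡ 1 [MOD 3 ^ a] := (Nat.chineseRemainder hc 0 1).2 |>
    fun h => ⟨_, h⟩
  have e1 : ∀ h : G, (h ^ k) ^ 3 ^ a = 1 := fun h => by
    obtain ⟨u, hu⟩ := Nat.modEq_zero_iff_dvd.1 hk1
    rw [← pow_mul, hu, mul_comm n, mul_assoc, mul_comm n, ← hN, mul_comm, pow_mul, pow_card_eq_one',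
      one_pow]
  have e2 : ∀ h : G, (h ^ k) ^ n = h ^ n := fun h => by
    rw [← pow_mul, pow_eq_pow_iff_modEq]
    refine Nat.ModEq.of_dvd (orderOf_dvd_natCard h) ?_
    have := hk2.mul_right' n
    rwa [one_mul, ← hN] at this
  rw [sm_tab, cn_eq, mul_comm (Nat.card G), card_tab, card_eq_sum_card_fiberwise
    (t := univ.filter fun g : G => g ≠ 1 ∧ (ent g).1 = 3) (f := fun h => h ^ k), mul_sum]
  · refine sum_le_sum fun g hg => ?_
    obtain ⟨-, h1, h2⟩ := mem_filter.1 hg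
    obtain ⟨j, hj⟩ := ord_eq_pow Nat.prime_three h2
    refine le_trans ?_ (card_mul_le (g := g) (n := n)
      (hj ▸ ((Nat.Prime.coprime_iff_not_dvd Nat.prime_three).2 hn).symm.pow_right _))
    rw [mul_comm]
    refine Nat.mul_le_mul (card_le_card_of_injOn (fun h => h * g⁻¹) (fun h hh => ?_)
      fun _ _ _ _ e => mul_right_cancel e) (hj ▸ Nat.le_self_pow (by omega) 3)
    obtain rfl : h ^ k = g := (mem_filter.1 hh).2
    have c : Commute h (h ^ k)⁻¹ := (Commute.self_pow h k).inv_right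
    simp only [coe_filter, mem_univ, true_and, Set.mem_ofPred_eq]
    exact ⟨(Commute.pow_self h k).mul_right (Commute.refl _).inv_right, by
      rw [c.mul_pow, inv_pow, e2, mul_inv_cancel]⟩
  · intro h hh
    obtain ⟨-, h1, h2⟩ := mem_filter.1 hh
    have h3 : h ^ k ≠ 1 := fun h3 => hn (h2.trans ((lb_dvd h).trans (orderOf_dvd_of_pow_eq_one (by
      rw [← e2, h3, one_pow]))))
    exact mem_filter.2 ⟨mem_univ _, h3, lb_of_pow h3 Nat.prime_three (by norm_num) (e1 h)⟩

theorem frob_tab {n : ℕ} (h1 : n ∣ Nat.card G) (h2 : n.Coprime (Nat.card G / n)) :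
    n ∣ 1 + sm (tab G) (Nat.card G) fun x => x.1 ∣ n := by
  rw [sm_tab, ← card_one_add (p := fun g : G => g ^ n = 1) (q := fun g => (ent g).1 ∣ n) (one_pow n) fun g _ =>
    ⟨fun h => (lb_dvd g).trans (orderOf_dvd_of_pow_eq_one h), fun h => ?_⟩]
  · convert Solv.Frob.dvd_card_pow_eq_one h1
    rw [Nat.card_eq_fintype_card, Fintype.card_subtype]
  · refine orderOf_dvd_iff_pow_eq_one.1 ((coprime_ord (h2.symm.coprime_dvd_right h)).symm.dvd_of_dvd_mul_right ?_)
    rw [Nat.mul_div_cancel' h1]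
    exact orderOf_dvd_natCard g

theorem one_tab {p : ℕ} (hp : p.Prime) (h : cn (tab G) p = 1) : p - 1 ∣ Nat.card G := by
  have h1 := cn_le_one.1 h.le
  rw [cn_eq, Multiset.card_eq_one] at h
  obtain ⟨x, hx⟩ := h
  obtain ⟨g, hg, rfl⟩ := mem_tab.1 (Multiset.mem_of_mem_filter (hx ▸ Multiset.mem_singleton_self x))
  have hg2 : lb g = p := (Multiset.mem_filter.1 (show ent g ∈ (tab G).filter fun x => x.1 = p from
    hx ▸ Multiset.mem_singleton_self (ent g))).2
  have := Fact.mk hp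
  obtain ⟨y, hy⟩ := exists_prime_orderOf_dvd_card' p
    (hg2 ▸ (lb_dvd g).trans (orderOf_dvd_natCard g))
  have hy1 : ∀ z : G, orderOf z = p → z ≠ 1 := fun z hz h => hp.ne_one (by rw [← hz, h, orderOf_one])
  have h2 := sm_tab (G := G) fun x => x.1 = p
  rw [sm, hx, Multiset.map_singleton, Multiset.sum_singleton] at h2
  refine dvd_trans ?_ (Nat.div_dvd_of_dvd (cc_dvd g))
  change _ ∣ Nat.card G / (ent g).2
  rw [h2, ← Nat.totient_prime hp]
  convert Cfsg.Agent.S3996.totient_dvd (G := G) p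
  rw [Solv.Count.cnt, Nat.card_eq_fintype_card, Fintype.card_subtype]
  congr 1
  ext z
  simp only [mem_filter, mem_univ, true_and]
  exact ⟨fun h3 => (orderOf_conj (h1 y z (hy1 y hy) h3.1 (lb_prime hp hy) h3.2)).symm.trans hy,
    fun h3 => ⟨hy1 z h3, lb_prime hp h3⟩⟩

theorem cn_mul {p : ℕ} [hp : Fact p.Prime] (h : ¬ p * p ∣ Nat.card G) (P : Sylow p G)
    (hP : Nat.card P = p) : cn (tab G) p * (centralizer ((P : Subgroup G) : Set G)).relIndex
      (normalizer ((P : Subgroup G) : Set G)) = p - 1 := by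
  rw [← Block.PS.card_classes_mul P hP, cn_tab, Nat.card_eq_fintype_card, Fintype.card_subtype, CS]
  congr 2
  ext C
  simp only [mem_filter, mem_univ, true_and]
  refine ⟨fun h1 => ⟨_, mk_rp C, ord_eq hp.out h1.2 fun h2 => h (h2.trans (orderOf_dvd_natCard _))⟩, ?_⟩
  rintro ⟨g, rfl, h1⟩
  rw [orderOf_conj (isConj_rp g)] at h1
  exact ⟨fun h2 => hp.out.ne_one (by rw [← h1, h2, orderOf_one]), lb_prime hp.out h1⟩

theorem ssc_data {g : G} {p : ℕ} (hp : p.Prime) (h : ent g = (p, p)) : SCS.SSC (zpowers g) ∧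
    Nat.card (zpowers g) = p ∧ ¬ p * p ∣ Nat.card G ∧
      cn (tab G) p * (zpowers g).relIndex (normalizer (zpowers g : Set G)) = p - 1 := by
  have := Fact.mk hp
  have h1 : cc g = p := congrArg Prod.snd h
  have h0 : ¬ p * p ∣ p := fun h2 => by
    have := Nat.le_of_dvd hp.pos h2
    have := hp.one_lt
    nlinarith
  have h2 : orderOf g = p := ord_eq hp (congrArg Prod.fst h) fun h2 => h0 (h1 ▸ h2.trans (ord_dvd_cc g))
  have h3 : Nat.card (zpowers g) = p := by rw [Nat.card_zpowers, h2]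
  have h4 : centralizer ({g} : Set G) = zpowers g := (eq_of_le_of_card_ge
    (zpowers_le.2 (mem_centralizer_singleton_iff.2 rfl)) (h3 ▸ h1.le)).symm
  have h5 : ¬ p * p ∣ Nat.card G := fun h5 => h0 (by have := sq_dvd_cc hp h2 h5; rwa [h1] at this)
  obtain ⟨P, hP⟩ := Block.PS.exists_sylow_zpowers h2 h4
  refine ⟨fun a ha h6 => ?_, h3, h5, ?_⟩
  · rw [Block.PS.centralizer_singleton_eq h3 ha h6, Block.PS.centralizer_zpowers, h4]
  · have := cn_mul h5 P (hP ▸ h3)
    rwa [hP, Block.PS.centralizer_zpowers, h4] at this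

theorem inv_iff {g : G} : g ≠ 1 ∧ (ent g).1 = 2 ↔ g ≠ 1 ∧ g * g = 1 := and_congr_right fun h =>
  ⟨fun h1 => by rw [← sq, ← ord_two h1, pow_orderOf_eq_one],
    fun h1 => lb_prime Nat.prime_two (orderOf_eq_prime (by rwa [sq]) h)⟩

theorem bfl_tab : sm (tab G) (Nat.card G) (fun x => x.1 = 2) + ((tab G).filter fun x => x.1 = x.2 ∧
    x.1.Prime ∧ x.1 ≠ 2 ∧ 2 ∣ (x.1 - 1) / cn (tab G) x.1).card * Nat.card G ≤
      sm (tab G) (Nat.card G) (fun x => x.1 = 2) * sm (tab G) (Nat.card G) (fun x => x.1 = 2) := by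
  rw [card_tab, sm_tab]
  set I := univ.filter fun g : G => g ≠ 1 ∧ (ent g).1 = 2 with hI
  have hI' : ∀ g, g ∈ I ↔ g ≠ 1 ∧ g * g = 1 := fun g => by rw [hI, mem_filter, inv_iff]; simp
  rw [← card_product, card_eq_sum_card_fiberwise (t := univ) (f := fun x : G × G => x.1 * x.2)
    fun _ _ => mem_univ _, ← add_sum_erase _ _ (mem_univ 1)]
  refine add_le_add (card_le_card_of_injOn (fun u => (u, u)) (fun u hu => ?_)
    fun _ _ _ _ e => congrArg Prod.fst e) (le_trans (sum_le_sum fun g hg => ?_)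
      (sum_le_sum_of_subset fun g hg => mem_erase.2 ⟨(mem_filter.1 hg).2.1, mem_univ _⟩))
  · exact mem_filter.2 ⟨mem_product.2 ⟨hu, hu⟩, ((hI' u).1 hu).2⟩
  obtain ⟨-, h1, h2, h3, h4, h5⟩ := mem_filter.1 hg
  obtain ⟨a1, a2, -, a4⟩ := ssc_data h3 (Prod.ext rfl h2.symm)
  have a5 : 0 < cn (tab G) (ent g).1 := one_le_cn (ent_mem h1)
  rw [← a4, Nat.mul_div_cancel_left _ a5] at h5
  obtain ⟨s, hs⟩ := a1.exists_inv h5
  have a6 : ∀ a ∈ zpowers g, s * a ∈ I := fun a ha => (hI' _).2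
    ⟨fun h => hs.notMem (by rw [mul_eq_one_iff_eq_inv.1 h]; exact inv_mem ha), hs.mul ha⟩
  have a7 : cc g = (univ : Finset (zpowers g)).card := by
    rw [card_univ, ← Nat.card_eq_fintype_card, a2]; exact h2.symm
  rw [a7]
  refine card_le_card_of_injOn (fun a => (s * a, s * (a * g))) (fun a _ => mem_filter.2 ⟨mem_product.2
    ⟨a6 _ a.2, a6 _ (mul_mem a.2 (mem_zpowers g))⟩, ?_⟩)
      fun _ _ _ _ e => Subtype.ext (mul_left_cancel (congrArg Prod.fst e))
  change s * a * (s * (a * g)) = g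
  rw [← mul_assoc s, ← mul_assoc, hs.mul a.2, one_mul]

theorem good [IsSimpleGroup G] (hG : ¬ IsMulCommutative G) (h4 : 4 ∣ Nat.card G) :
    Good (Nat.card (ConjClasses G)) (tab G) (Nat.card G) := by
  have syl0 : ∀ x ∈ tab G, x.1.Prime → ¬ x.1 * x.1 ∣ x.2 → ¬ x.1 * x.1 ∣ Nat.card G := by
    intro x hx hp h1 h2
    obtain ⟨g, -, rfl⟩ := mem_tab.1 hx
    exact h1 (sq_dvd_cc hp (ord_eq hp rfl fun h => h1 (h.trans (ord_dvd_cc g))) h2)
  have syl2 : ∀ p, p.Prime → p ≠ 2 → ¬ p * p ∣ Nat.card G → 2 * cn (tab G) p < p := by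
    intro p hp _ h2
    have := Fact.mk hp
    by_cases h3 : p ∣ Nat.card G
    · obtain ⟨P⟩ := (inferInstance : Nonempty (Sylow p G))
      have hP := Block.PS.card_sylow_eq h3 (by rwa [sq]) P
      have h5 := cn_mul h2 P hP
      have h6 := Known.SC.relIndex_centralizer_ne_one P (fun h => hp.ne_one (by rw [← hP, h, card_bot]))
        fun h => hG (by
          have := isCyclic_of_prime_card (α := G) (p := p) (by rw [← hP, h, card_top])
          infer_instance)
      have h7 := hp.two_le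
      generalize (centralizer ((P : Subgroup G) : Set G)).relIndex _ = e at h5 h6
      rcases e with _ | _ | e
      · omega
      · omega
      · have : cn (tab G) p * 2 ≤ p - 1 := h5 ▸ Nat.mul_le_mul_left _ (by omega)
        omega
    · rw [cn, Multiset.count_eq_zero_of_notMem]
      · exact hp.pos
      intro h
      obtain ⟨x, hx, rfl⟩ := Multiset.mem_map.1 h
      obtain ⟨g, -, rfl⟩ := mem_tab.1 hx
      exact h3 ((lb_dvd g).trans (orderOf_dvd_natCard g))
  refine ⟨Nat.card_pos, card_tab_add, ?_, ?_, ?_, ?_, ?_, ?_, fun x hx h => ?_, syl0, ?_, syl2,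
    fun _ => one_tab, ?_, ?_, three_tab, ?_, bfl_tab, fun _ => frob_tab⟩
  · rw [sm_tab, ← card_one_add (p := fun _ => True) trivial fun _ _ => Iff.rfl]
    simp
  · intro x hx
    obtain ⟨g, hg, rfl⟩ := mem_tab.1 hx
    exact ⟨one_lt_lb hg, (lb_dvd g).trans (ord_dvd_cc g), cc_dvd g⟩
  · intro x hx
    obtain ⟨g, hg, rfl⟩ := mem_tab.1 hx
    exact ⟨not_eight_dvd g, fun _ => eq_two_of_sq g⟩
  · intro x hx r hr h1 h2
    obtain ⟨g, hg, rfl⟩ := mem_tab.1 hx
    have := Fact.mk hr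
    obtain ⟨y, hy⟩ := exists_prime_orderOf_dvd_card' (G := centralizer ({g} : Set G)) r h1
    rw [← Subgroup.orderOf_coe] at hy
    have c : Commute g y := (mem_centralizer_singleton_iff.1 y.2).symm
    have hc : r.Coprime (orderOf g) := coprime_ord ((Nat.Prime.coprime_iff_not_dvd hr).2 h2)
    have hm := mem_zpowers_mul c (hy ▸ pow_orderOf_eq_one (y : G)) hc
    refine ⟨ent (g * y), ent_mem fun h => hg (by simpa [h] using hm), ?_, card_dvd_of_le (cent_le_of_mem hm)⟩
    change lb (g * y) = r * lb g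
    rw [lb_mul c (hy ▸ hc.symm), lb_prime hr hy, mul_comm]
  · intro x hx d h1 h2
    obtain ⟨g, hg, rfl⟩ := mem_tab.1 hx
    have h3 := orderOf_pow_orderOf_div (orderOf_pos g).ne' (h2.trans (lb_dvd g))
    exact ⟨ent (g ^ (orderOf g / d)), ent_mem fun h => by rw [h, orderOf_one] at h3; omega,
      (lb_of_dvd (h3 ▸ h2)).trans h3, card_dvd_of_le (cent_le_of_mem (npow_mem_zpowers _ _))⟩
  · intro r hr h
    have := Fact.mk hr
    obtain ⟨y, hy⟩ := exists_prime_orderOf_dvd_card' r h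
    exact ⟨ent y, ent_mem fun h => hr.ne_one (by rw [← hy, h, orderOf_one]), lb_prime hr hy⟩
  · by_contra h1
    exact syl0 x hx (h ▸ Nat.prime_two) (by rwa [h]) (by rwa [h])
  · intro x hx y hy hp h1 h2
    obtain ⟨g, hg, rfl⟩ := mem_tab.1 hx
    obtain ⟨h, hh, rfl⟩ := mem_tab.1 hy
    have := Fact.mk hp
    obtain ⟨P⟩ := (inferInstance : Nonempty (Sylow (ent g).1 G))
    have hP := Block.PS.card_sylow_eq (p := (ent g).1) ((lb_dvd g).trans (orderOf_dvd_natCard g))
      (by rwa [sq]) P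
    have key : ∀ z : G, z ≠ 1 → lb z = (ent g).1 → cc z = Nat.card (centralizer ((P : Subgroup G) : Set G)) :=
      fun z h3 h5 => by
        obtain ⟨c, hc⟩ := Block.PS.exists_conj_mem P hP
          (ord_eq hp h5 fun h6 => h1 (h6.trans (orderOf_dvd_natCard z)))
        have h6 : IsConj z (c * z * c⁻¹) := isConj_iff.2 ⟨c, rfl⟩
        rw [← Block.PS.centralizer_singleton_eq hP hc ((ne_one_conj h6).1 h3)]
        exact congrArg Prod.snd (ent_conj h6)
    exact (key h hh h2).trans (key g hg rfl).symm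
  · intro p hp h5 hx h1
    obtain ⟨g, hg, h2⟩ := mem_tab.1 hx
    obtain ⟨a1, a2, a3, a4⟩ := ssc_data hp h2
    have a5 := syl2 p hp (by omega) a3
    have a6 : p % 2 = 1 := Nat.odd_iff.1 (hp.odd_of_ne_two (by omega))
    have a7 : (zpowers g).relIndex (normalizer (zpowers g : Set G)) = 2 :=
      Nat.eq_of_mul_eq_mul_left (show 0 < cn (tab G) p by omega) (by omega)
    obtain ⟨χ, δ, c, Θ, D⟩ := a1.exists_two a7 (a2 ▸ h5)
    exact cn_le_one.2 fun u v b1 b2 b3 b4 => D.isConj' (inv_iff.1 ⟨b1, b3⟩).2 b1 (inv_iff.1 ⟨b2, b4⟩).2 b2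
  · intro x hx n h1 h2
    obtain ⟨g, hg, rfl⟩ := mem_tab.1 hx
    exact sect_tab hg h1 h2
  · rw [sm_tab]
    have := PrimeOne.card_mul_pred_le (univ.filter fun g : G => g ≠ 1 ∧ (ent g).1 = 2)
      fun s hs => (inv_iff.1 (mem_filter.1 hs).2).2
    generalize (univ.filter fun g : G => g ≠ 1 ∧ (ent g).1 = 2).card = I at this ⊢
    rcases I with _ | I
    · simpa using this
    · rw [Nat.add_sub_cancel] at this
      nlinarith

end Cfsg.Lib.FewCl
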