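import Cfsg.Agent.FewCl.Spec

/-! The numerical constraints on a class table, and the invariant of the search. -/

namespace Cfsg.Lib.FewCl

open Multiset

/-- Multisets of pairs (label, centraliser order). -/
abbrev MT := Multiset (ℕ × ℕ)

/-- The number of entries with the label `d`. -/
def cn (T : MT) (d : ℕ) : ℕ := (T.map Prod.fst).count d

/-- The sum of the class sizes over the entries satisfying `p`. -/
def sm (T : MT) (N : ℕ) (p : ℕ × ℕ → Prop) [DecidablePred p] : ℕ :=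
  ((T.filter p).map fun x => N / x.2).sum

/-- The constraints satisfied by the table of the non-trivial classes of a simple group of order `N`
with `K` classes. -/
structure Good (K : ℕ) (T : MT) (N : ℕ) : Prop where
  pos : 0 < N
  card : T.card + 1 = K
  cls : 1 + sm T N (fun _ => True) = N
  lab : ∀ x ∈ T, 1 < x.1 ∧ x.1 ∣ x.2 ∧ x.2 ∣ N
  shape : ∀ x ∈ T, ¬ 8 ∣ x.1 ∧ ∀ r, r.Prime → r * r ∣ x.1 → r = 2
  up : ∀ x ∈ T, ∀ r, r.Prime → r ∣ x.2 → ¬ r ∣ x.1 → ∃ y ∈ T, y.1 = r * x.1 ∧ y.2 ∣ x.2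
  down : ∀ x ∈ T, ∀ d, 1 < d → d ∣ x.1 → ∃ y ∈ T, y.1 = d ∧ x.2 ∣ y.2
  cauchy : ∀ r, r.Prime → r ∣ N → ∃ x ∈ T, x.1 = r
  four : ∀ x ∈ T, x.1 = 2 → 4 ∣ x.2
  syl0 : ∀ x ∈ T, x.1.Prime → ¬ x.1 * x.1 ∣ x.2 → ¬ x.1 * x.1 ∣ N
  syl1 : ∀ x ∈ T, ∀ y ∈ T, x.1.Prime → ¬ x.1 * x.1 ∣ N → y.1 = x.1 → y.2 = x.2
  syl2 : ∀ p, p.Prime → p ≠ 2 → ¬ p * p ∣ N → 2 * cn T p < p
  one : ∀ p, p.Prime → cn T p = 1 → p - 1 ∣ N
  e2 : ∀ p, p.Prime → 5 ≤ p → (p, p) ∈ T → p ≤ 2 * cn T p + 1 → cn T 2 ≤ 1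
  sect : ∀ x ∈ T, ∀ n, n ∣ x.2 → n.Coprime x.1 → ∃ S ≤ T,
    (∀ y ∈ S, x.1 ∣ y.1 ∧ y.1 ≠ x.1 ∧ y.2 ∣ x.2 ∧ (y.1 / x.1).Coprime x.1) ∧
      n ∣ 1 + sm S x.2 (fun _ => True) ∧ (1 + sm S x.2 fun _ => True) * x.1 ≤ x.2
  three : 3 * sm T N (fun x => 3 ∣ x.1) ≤ N * cn T 3
  bfu : sm T N (fun x => x.1 = 2) * sm T N (fun x => x.1 = 2) + N ≤ sm T N (fun x => x.1 = 2) + K * N
  bfl : sm T N (fun x => x.1 = 2) + (T.filter fun x => x.1 = x.2 ∧ x.1.Prime ∧ x.1 ≠ 2 ∧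
    2 ∣ (x.1 - 1) / cn T x.1).card * N ≤ sm T N (fun x => x.1 = 2) * sm T N (fun x => x.1 = 2)
  frob : ∀ n, n ∣ N → n.Coprime (N / n) → n ∣ 1 + sm T N fun x => x.1 ∣ n

/-- The order in which the entries are processed. -/
def Le (y z : ℕ × ℕ) : Prop := y.2 ≤ z.2 ∧ (z.2 ≤ y.2 → z.1 ≤ y.1)

/-- All odd prime divisors of `n` are listed. -/
def Sm (Pi : List ℕ) (n : ℕ) : Prop := ∀ r, r.Prime → r ∣ n → r = 2 ∨ r ∈ Pi

/-- The invariant of the search: `R` is what remains of the table. -/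
structure Inv (T : MT) (N : ℕ) (allp : Bool) (s : St) (R : MT) : Prop where
  split : T = s.P + R
  lt : ∀ y ∈ s.P, ∀ z ∈ R, Le y z
  last : ∀ z ∈ R, Le (s.lo, s.lc) z
  ex : ∃ t, N = s.L * t ∧ s.A * t = 1 + sm R N (fun _ => True) ∧
    s.I * t = sm s.P N (fun x => x.1 = 2) ∧ s.s3 * t = sm s.P N fun x => 3 ∣ x.1
  c2 : s.c2 = cn s.P 2
  c3 : s.c3 = cn s.P 3
  pi : ∀ r ∈ s.Pi, r.Prime ∧ r ≠ 2
  pi3 : 3 ∈ s.Pi
  piP : ∀ y ∈ s.P, Sm s.Pi y.1
  piO : ∀ y ∈ s.Ob, Sm s.Pi y.1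
  piA : allp = true → Sm s.Pi N
  C : ∀ y : ℕ × ℕ, ¬ y.1.Prime → y.1 ≠ 4 → (s.P : MT).count y ≤ (s.C : MT).count y
  Ob : ∀ y ∈ s.Ob, ∃ z ∈ R, z.1 = y.1 ∧ y.2 ∣ z.2
  nd : (s.Ob.map Prod.fst).Nodup
  S : ∀ y ∈ s.S, y ∈ s.P ∧ y.1.Prime ∧ ¬ y.1 * y.1 ∣ N
  e2 : s.e2 = true → cn T 2 ≤ 1
  s6 : s.s6 = true → 2 ≤ cn T 2

theorem cn_add (S T : MT) (d : ℕ) : cn (S + T) d = cn S d + cn T d := by simp [cn]

theorem cn_cons (x : ℕ × ℕ) (T : MT) (d : ℕ) :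
    cn (x ::ₘ T) d = cn T d + if x.1 = d then 1 else 0 := by
  simp [cn, Multiset.count_cons, eq_comm]

theorem cn_coe (P : Tb) (d : ℕ) : cn P d = cnt P d := by simp [cn, cnt_eq]

theorem one_le_cn {T : MT} {x : ℕ × ℕ} (h : x ∈ T) : 1 ≤ cn T x.1 :=
  Multiset.one_le_count_iff_mem.2 (Multiset.mem_map_of_mem _ h)

section
variable {N : ℕ} {p : ℕ × ℕ → Prop} [DecidablePred p]

theorem sm_add (S T : MT) : sm (S + T) N p = sm S N p + sm T N p := by simp [sm]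

theorem sm_cons (x : ℕ × ℕ) (T : MT) :
    sm (x ::ₘ T) N p = (if p x then N / x.2 else 0) + sm T N p := by
  by_cases h : p x <;> simp [sm, h]

theorem sm_zero : sm 0 N p = 0 := by simp [sm]

theorem sm_coe (P : Tb) (q : ℕ × ℕ → Bool) (h : ∀ x, q x = true ↔ p x) :
    sm P N p = sumL P q fun x => Nat.div N x.2 := by
  rw [sumL_eq, sm, Multiset.filter_coe, Multiset.map_coe, Multiset.sum_coe]
  congr 2
  exact List.filter_congr fun x _ => by rw [Bool.eq_iff_iff, h, decide_eq_true_iff]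

theorem sm_le_card (T : MT) {u : ℕ} (h : ∀ x ∈ T, N / x.2 ≤ u) : sm T N p ≤ T.card * u := by
  induction T using Multiset.induction_on with
  | empty => simp [sm]
  | cons x T ih =>
    have h1 := ih fun y hy => h y (mem_cons_of_mem hy)
    have h2 := h x (mem_cons_self _ _)
    rw [sm_cons, card_cons, add_mul]
    split_ifs <;> omega

theorem sm_le_true (T : MT) : sm T N p ≤ sm T N fun _ => True := by
  induction T using Multiset.induction_on with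
  | empty => simp [sm]
  | cons x T ih =>
    rw [sm_cons, sm_cons, if_pos trivial]
    generalize N / x.2 = u
    split_ifs <;> omega

end

theorem exists_min {R : MT} (h : R ≠ 0) : ∃ x R', R = x ::ₘ R' ∧ ∀ z ∈ R, Le x z := by
  obtain ⟨x, hx, hm⟩ := Multiset.exists_min_image
    (fun y : ℕ × ℕ => toLex (y.2, OrderDual.toDual y.1)) h
  obtain ⟨R', rfl⟩ := exists_cons_of_mem hx
  refine ⟨x, R', rfl, fun z hz => ?_⟩
  have := hm z hz
  rw [Prod.Lex.toLex_le_toLex] at this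
  simp only [OrderDual.toDual_le_toDual] at this
  constructor <;> omega

variable {K N : ℕ} {T R : MT} {allp : Bool} {s : St}

theorem Good.cpos (g : Good K T N) {x : ℕ × ℕ} (hx : x ∈ T) : 0 < x.2 :=
  Nat.pos_of_dvd_of_pos (g.lab x hx).2.2 g.pos

theorem Inv.memR (i : Inv T N allp s R) {z : ℕ × ℕ} (hz : z ∈ R) : z ∈ T :=
  i.split ▸ mem_add.2 (Or.inr hz)

theorem Inv.memP (i : Inv T N allp s R) {z : ℕ × ℕ} (hz : z ∈ s.P) : z ∈ T :=
  i.split ▸ mem_add.2 (Or.inl (mem_coe.2 hz))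

theorem Inv.cases (i : Inv T N allp s R) {z : ℕ × ℕ} (hz : z ∈ T) : z ∈ s.P ∨ z ∈ R := by
  rw [i.split, mem_add, mem_coe] at hz; exact hz

/-- The tests on entering a state. -/
theorem pre_sound (g : Good K T N) (i : Inv T N allp s R) {NMIN : ℕ} (hN : NMIN ≤ N) :
    ∃ x2 x3 N0, N0 ≤ N ∧
      ((s.Ob.map Prod.fst : List ℕ) : Multiset ℕ) + replicate x2 2 + replicate x3 3 ≤ R.map Prod.fst ∧
      ∀ body, pre K NMIN s.Ob s.e2 s.s6 s.L s.c2 s.c3 s.I s.s3 R.card body = true →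
        body x2 x3 (s.Ob.length + x2 + x3) N0 = true := by
  obtain ⟨t, hN1, -, hI, h3⟩ := i.ex
  have ht : 0 < t := Nat.pos_of_mul_pos_left (hN1 ▸ g.pos)
  have hL : 0 < s.L := Nat.pos_of_mul_pos_right (hN1 ▸ g.pos)
  set h2 := (if 2 ∈ s.Ob.map Prod.fst then 1 else 0) with hh2
  set h3' := (if 3 ∈ s.Ob.map Prod.fst then 1 else 0) with hh3
  set x2 := (if s.s6 = true then 2 - s.c2 - h2 else 0) with hx2
  set x3 := (3 * s.s3 + s.L - 1) / s.L - s.c3 - h3' with hx3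
  set N0 := (if NMIN ≤ s.L then s.L else NMIN) with hN0
  have hN0' : N0 ≤ N := by
    rw [hN0]; split_ifs
    · rw [hN1]; exact Nat.le_mul_of_pos_right _ ht
    · exact hN
  have hc : ∀ d, d ∈ s.Ob.map Prod.fst → 1 ≤ cn R d := fun d hd => by
    obtain ⟨y, hy, rfl⟩ := List.mem_map.1 hd
    obtain ⟨z, hz, h1, -⟩ := i.Ob y hy
    exact h1 ▸ one_le_cn hz
  have hcT : ∀ d, cn T d = cn s.P d + cn R d := fun d => by rw [i.split, cn_add]
  have a2 : h2 + x2 ≤ cn R 2 := by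
    have := hc 2
    have := i.s6
    have := hcT 2
    have := i.c2
    rw [hx2, hh2]
    split_ifs <;> simp_all <;> omega
  have a3 : h3' + x3 ≤ cn R 3 := by
    have b1 : 3 * s.s3 ≤ s.L * cn T 3 := by
      have b2 := g.three
      rw [i.split, sm_add, ← i.split, ← h3, hN1] at b2
      refine Nat.le_of_mul_le_mul_right ?_ ht
      nlinarith [Nat.zero_le (sm R (s.L * t) fun x => 3 ∣ x.1)]
    have b3 : (3 * s.s3 + s.L - 1) / s.L ≤ cn T 3 := by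
      rw [Nat.div_le_iff_le_mul_add_pred hL]; omega
    have := hc 3
    have := hcT 3
    have := i.c3
    rw [hx3, hh3]
    split_ifs <;> simp_all <;> omega
  have hM : ((s.Ob.map Prod.fst : List ℕ) : Multiset ℕ) + replicate x2 2 + replicate x3 3 ≤
      R.map Prod.fst := by
    refine le_iff_count.2 fun d => ?_
    rw [count_add, count_add, count_replicate, count_replicate, coe_count,
      i.nd.count]
    change _ ≤ cn R d
    have := hc d
    by_cases d2 : d = 2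
    · subst d2; simpa [hh2] using a2
    by_cases d3 : d = 3
    · subst d3; simpa [hh3] using a3
    rw [if_neg (Ne.symm d2), if_neg (Ne.symm d3)]
    split_ifs with h <;> simp_all
  refine ⟨x2, x3, N0, hN0', hM, fun body h => ?_⟩
  have b1 : N0 * (s.I * s.I) ≤ K * (s.L * s.L) := by
    have b2 := g.bfu
    have b3 : sm T N (fun x => x.1 = 2) ≤ N := le_trans (sm_le_true T) (by have := g.cls; omega)
    have b4 : s.I * t ≤ sm T N fun x => x.1 = 2 := by rw [hI, i.split, sm_add]; omega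
    have b5 : s.I * t * (s.I * t) ≤ K * (s.L * t) := by
      rw [← hN1]; have := Nat.mul_le_mul b4 b4; omega
    have b6 : s.I * s.I * t ≤ K * s.L := Nat.le_of_mul_le_mul_right (by nlinarith) ht
    calc N0 * (s.I * s.I) ≤ s.L * t * (s.I * s.I) := Nat.mul_le_mul_right _ (hN1 ▸ hN0')
      _ = s.L * (s.I * s.I * t) := by ring
      _ ≤ s.L * (K * s.L) := Nat.mul_le_mul_left _ b6
      _ = K * (s.L * s.L) := by ring
  have b2 : ¬ (s.e2 = true ∧ 2 ≤ s.c2 + h2 + x2) := fun ⟨b3, b4⟩ => by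
    have := i.e2 b3
    have := hcT 2
    have := i.c2
    omega
  have b3 : s.Ob.length + x2 + x3 ≤ R.card := by simpa using card_le_card hM
  simp only [pre, force_eq, rec_eq, Nat.ble_eq, has_iff, len_eq, Nat.add_eq, Nat.mul_eq, Nat.sub_eq,
    divE, ← hN0, ← hh2, ← hh3, ← hx2, ← hx3, if_pos b1, if_pos b3] at h
  by_cases b4 : s.e2 = true
  · simpa [b4, show ¬ 2 ≤ s.c2 + h2 + x2 from fun b5 => b2 ⟨b4, b5⟩] using h
  · simpa [b4] using h

end Cfsg.Lib.FewCl
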