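import Cfsg.Agent.FewCl.Search

/-! The tests at the leaves of the search. -/

namespace Cfsg.Lib.FewCl

/-- The surviving tables of the general search. -/
def leafG (N : ℕ) (P : Tb) : Bool := N == 10752 || N == 21504 || N == 86016 ||
  (N == 11520 && P.all (fun x => x.1 != 4) && P.any fun x => x.1 == 2 && x.2 % 256 != 0)

/-- The surviving tables of order `29120`. -/
def leafS (_ : ℕ) (P : Tb) : Bool := P.any fun x => x.1 == 4 && x.2 % 16 != 0

/-- No surviving table. -/
def leafN (_ : ℕ) (_ : Tb) : Bool := false

end Cfsg.Lib.FewCl
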