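import Cfsg.Agent.FewCl.Step

/-! Soundness of the search. -/

namespace Cfsg.Lib.FewCl

open Multiset

variable {K N : ℕ} {T R R' : MT} {allp h6 : Bool} {s : St} {o c : ℕ}

theorem step_sound (g : Good K T N) (i : Inv T N allp s ((o, c) ::ₘ R'))
    (hh : h6 = true → (6, 6) ∈ T → 2 ≤ cn T 2) {Pi : List ℕ} (hPi : ∀ r ∈ Pi, r.Prime ∧ r ≠ 2)
    (hs : ∀ r ∈ s.Pi, r ∈ Pi) (ho : Sm Pi o) :
    ∃ C Ob S e2 s6, (∀ y : ℕ × ℕ, ¬ y.1.Prime → y.1 ≠ 4 →
        (((o, c) :: s.P : Tb) : MT).count y ≤ ((C : Tb) : MT).count y) ∧ ObOk R' Pi Ob ∧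
      (∀ y ∈ S, y ∈ (o, c) :: s.P ∧ y.1.Prime ∧ ¬ y.1 * y.1 ∣ N) ∧ (e2 = true → cn T 2 ≤ 1) ∧
      (s6 = true → 2 ≤ cn T 2) ∧
      ∀ f, step h6 s.P Pi s.C s.Ob s.S s.e2 s.s6 o c f = true → f C Ob S e2 s6 = true := by
  have hx : (o, c) ∈ T := i.memR (mem_cons_self _ _)
  have ho1 : 1 < o := (g.lab _ hx).1
  have hO : ObOk R' Pi (s.Ob.filter fun y =>
      Bool.rec true (Bool.rec true false (Nat.beq (Nat.mod c y.2) 0)) (Nat.beq y.1 o)) := by
    refine ObOk.filter i.nd _ fun y hy hp => ⟨?_, fun r hr hd => (i.piO y hy r hr hd).imp_right (hs r)⟩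
    obtain ⟨z, hz, h1, h2⟩ := i.Ob y hy
    rcases mem_cons.1 hz with rfl | hz
    · simp only [rec_eq, Nat.beq_eq, dvF] at hp h1 h2
      simp [h1, h2] at hp
    · exact ⟨z, hz, h1, h2⟩
  have hd : ∀ d, 1 < d → d < o → d ∣ o → (∃ z ∈ R', z.1 = d ∧ c ∣ z.2) ∧ Sm Pi d := by
    intro d h1 h2 h3
    refine ⟨?_, fun r hr h => ho r hr (h.trans h3)⟩
    obtain ⟨z, hz, h4, h5⟩ := g.down _ hx d h1 h3
    rcases i.cases hz with h | h
    · have := (i.lt z h _ (mem_cons_self _ _)).2 (Nat.le_of_dvd (g.cpos hz) h5)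
      simp only at this; omega
    · rcases mem_cons.1 h with rfl | h
      · simp only at h4; omega
      · exact ⟨z, h, h4, h5⟩
  have hC : o.Prime ∨ o = 4 → ∀ y : ℕ × ℕ, ¬ y.1.Prime → y.1 ≠ 4 →
      (((o, c) :: s.P : Tb) : MT).count y ≤ (s.C : MT).count y := fun h y h1 h2 => by
    rw [← cons_coe, count_cons_of_ne (by rintro rfl; tauto)]
    exact i.C y h1 h2
  have hS : ∀ y ∈ s.S, y ∈ (o, c) :: s.P ∧ y.1.Prime ∧ ¬ y.1 * y.1 ∣ N := fun y hy =>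
    ⟨List.mem_cons_of_mem _ (i.S y hy).1, (i.S y hy).2⟩
  simp only [step, filtK_eq, List.append_nil, force_eq, rec_eq, mem_iff, dvF, Nat.beq_eq, Nat.ble_eq,
    Nat.mul_eq, Nat.succ_eq_add_one] at hO ⊢
  by_cases a1 : o ∈ Pi
  · obtain ⟨hp, h2⟩ := hPi o a1
    by_cases a2 : o * o ∣ c
    · exact ⟨_, _, _, _, _, hC (Or.inl hp), hO, hS, i.e2, i.s6, fun f => by simp [a1, a2]⟩
    have b1 := g.syl0 _ hx hp a2
    have b2 := g.syl2 o hp h2 b1
    have b3 : cnt s.P o + 1 ≤ cn T o := by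
      rw [i.split, cn_add, cn_cons, cn_coe, if_pos rfl]; omega
    have b4 : ¬ o ≤ 2 * (cnt s.P o + 1) := by omega
    have hS' : ∀ y ∈ (o, c) :: s.S, y ∈ (o, c) :: s.P ∧ y.1.Prime ∧ ¬ y.1 * y.1 ∣ N := fun y hy => by
      rcases List.mem_cons.1 hy with rfl | hy
      · exact ⟨List.mem_cons_self, hp, b1⟩
      · exact hS y hy
    by_cases a3 : o = c ∧ 5 ≤ o ∧ o ≤ 2 * (cnt s.P o + 1) + 1
    · have b5 : cn T 2 ≤ 1 := g.e2 o hp a3.2.1 (by have := hx; rwa [← a3.1] at this) (by omega)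
      by_cases a4 : 2 * (cnt s.P o + 1) ≤ 2
      · exact ⟨_, _, _, true, _, hC (Or.inl hp), hO, hS', fun _ => b5, i.s6, fun f => by
          simp only [a1, a2, b4, a3.2.1, a3.2.2, a4, if_pos a3.1, if_true, if_false, Nat.ble_eq, imp_self]⟩
      · exact ⟨_, _, _, true, _, hC (Or.inl hp), hO, hS, fun _ => b5, i.s6, fun f => by
          simp only [a1, a2, b4, a3.2.1, a3.2.2, a4, if_pos a3.1, if_true, if_false, Nat.ble_eq, imp_self]⟩
    · have b5 : ¬ (if o = c then if 5 ≤ o then Nat.ble o (2 * (cnt s.P o + 1) + 1) else false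
          else false) = true := by
        split_ifs with h3 h4
        · rw [Nat.ble_eq]; tauto
        · simp
        · simp
      by_cases a4 : 2 * (cnt s.P o + 1) ≤ 2
      · exact ⟨_, _, _, _, _, hC (Or.inl hp), hO, hS', i.e2, i.s6, fun f => by
          simp only [a1, a2, b4, b5, a4, if_true, if_false, imp_self, Bool.false_eq_true]⟩
      · exact ⟨_, _, _, _, _, hC (Or.inl hp), hO, hS, i.e2, i.s6, fun f => by
          simp only [a1, a2, b4, b5, a4, if_true, if_false, imp_self, Bool.false_eq_true]⟩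
  by_cases a2 : o ≤ 2
  · obtain rfl : o = 2 := by omega
    exact ⟨_, _, _, _, _, hC (Or.inl Nat.prime_two), hO, hS, i.e2, i.s6, fun f => by simp [a1]⟩
  by_cases a3 : o = 4
  · obtain ⟨h1, h2⟩ := hd 2 one_lt_two (by omega) (by omega)
    obtain ⟨Ob, h3, h4⟩ := ins_sound hO h1 h2
    exact ⟨_, _, _, _, _, hC (Or.inr a3), h3, hS, i.e2, i.s6, fun f => by
      simp only [a1, a2, if_pos a3, h4, if_false, imp_self]⟩
  obtain ⟨Ob, h3, h4⟩ := newOb_sound (Q := 2 :: Pi) (fun r hr => by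
    rcases List.mem_cons.1 hr with rfl | hr
    · exact one_lt_two
    · exact (hPi r hr).1.one_lt) hd hO
  have hC' : ∀ y : ℕ × ℕ, ¬ y.1.Prime → y.1 ≠ 4 → (((o, c) :: s.P : Tb) : MT).count y ≤
      (((o, c) :: s.C : Tb) : MT).count y := fun y h1 h2 => by
    rw [← cons_coe, ← cons_coe, count_cons, count_cons]
    exact Nat.add_le_add_right (i.C y h1 h2) _
  by_cases a4 : (if c = 6 then if o = 6 then h6 else false else false) = true
  · refine ⟨_, _, _, _, true, hC', h3, hS, i.e2, fun _ => ?_, fun f => by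
      simp only [a1, a2, a3, a4, h4, if_false, if_true, imp_self]⟩
    split_ifs at a4 with h5 h7
    exact hh a4 (by rwa [h5, h7] at hx)
  · exact ⟨_, _, _, _, _, hC', h3, hS, i.e2, i.s6, fun f => by
      simp only [a1, a2, a3, a4, h4, if_false, imp_self, Bool.false_eq_true]⟩

theorem tr_sound (g : Good K T N) (i : Inv T N allp s ((o, c) ::ₘ R'))
    (hm : ∀ z ∈ (o, c) ::ₘ R', Le (o, c) z) {F : ℕ} (hF : N ∣ F)
    (hh : h6 = true → (6, 6) ∈ T → 2 ≤ cn T 2) {Pi : List ℕ} (hPi : ∀ r ∈ Pi, r.Prime ∧ r ≠ 2)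
    (hs : ∀ r ∈ s.Pi, r ∈ Pi) (ho : Sm Pi o) :
    ∃ s', Inv T N allp s' R' ∧ ∀ k lo' U, lo' ≤ c → (∀ r ∈ U, r.Prime) →
      tr F h6 k s.P s.C s.Ob s.S s.e2 s.s6 s.A s.L s.lc s.lo s.c2 s.c3 s.I s.s3 lo' Pi o U c = true →
        k s' = true := by
  have hx0 : (o, c) ∈ (o, c) ::ₘ R' := mem_cons_self _ _
  have hx : (o, c) ∈ T := i.memR hx0
  obtain ⟨C, Ob, S, e2, s6, h1, h2, h3, h4, h5, h7⟩ := step_sound g i hh hPi hs ho
  refine ⟨_, ?_, fun k lo' U hlo hU h => (fin_eq k s.P Pi s.A s.L s.c2 s.c3 s.I s.s3 o c C Ob S e2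
    s6).symm.trans (h7 _ ?_)⟩
  · have hsm : ∀ n, Sm s.Pi n → Sm Pi n := fun n hn r hr hd => (hn r hr hd).imp_right (hs r)
    refine ⟨?_, ?_, fun z hz => hm z (mem_cons_of_mem hz), ?_, ?_, ?_, hPi, hs 3 i.pi3, ?_,
      fun y hy => (h2.1 y hy).2, fun h => hsm _ (i.piA h), h1, fun y hy => (h2.1 y hy).1, h2.2, h3,
      h4, h5⟩
    · rw [i.split, ← cons_coe, cons_add, add_cons]
    · intro y hy z hz
      rcases List.mem_cons.1 hy with rfl | hy
      · exact hm z (mem_cons_of_mem hz)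
      · exact i.lt y hy z (mem_cons_of_mem hz)
    · obtain ⟨t, e1, e2, e3, e4⟩ := i.ex
      have hc : 0 < c := g.cpos hx
      have hL : 0 < s.L := Nat.pos_of_mul_pos_right (e1 ▸ g.pos)
      have e5 : s.L * (c / s.L.gcd c) = s.L.lcm c := by
        rw [Nat.lcm, Nat.mul_div_assoc _ (Nat.gcd_dvd_right _ _)]
      obtain ⟨t', e6⟩ : s.L.lcm c ∣ N := Nat.lcm_dvd ⟨t, e1⟩ (g.lab _ hx).2.2
      have e7 : t = c / s.L.gcd c * t' := by
        refine Nat.eq_of_mul_eq_mul_left hL ?_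
        rw [← mul_assoc, e5, ← e6, e1]
      have e8 : N / c = s.L.lcm c / c * t' := by
        rw [e6, mul_comm, mul_comm _ t', Nat.mul_div_assoc _ (Nat.dvd_lcm_right _ _)]
      rw [sm_cons, if_pos trivial] at e2
      refine ⟨t', by rw [e5, e6], ?_, ?_, ?_⟩ <;> dsimp only at e2 ⊢
      · rw [e5, Nat.sub_mul, mul_assoc, ← e7, ← e8, e2]; omega
      · rw [e5, ← cons_coe, sm_cons, add_mul, mul_assoc, ← e7, e3, add_comm, ite_mul, zero_mul, ← e8]
      · rw [e5, ← cons_coe, sm_cons, add_mul, mul_assoc, ← e7, e4, add_comm, ite_mul, zero_mul, ← e8]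
    · rw [← cons_coe, cn_cons, i.c2]
    · rw [← cons_coe, cn_cons, i.c3]
    · intro y hy
      rcases List.mem_cons.1 hy with rfl | hy
      · exact ho
      · exact hsm _ (i.piP y hy)
  · have b1 : (if c ≤ s.lc then Nat.ble o s.lo else true) = true := by
      split_ifs with h
      · exact Nat.ble_eq.mpr ((i.last _ hx0).2 h)
      · rfl
    have b2 : (if o = 2 then Nat.beq (Nat.mod c 4) 0 else true) = true := by
      split_ifs with h
      · exact (dvE _ _).mpr (g.four _ hx h)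
      · rfl
    have b3 := sylOk_sound g i hx0
    have b4 := upOk_sound g i hx0 hm hU
    simp only [tr, rec_eq, Nat.ble_eq, Nat.beq_eq, dvF, hlo, b1, b2, b3, b4, if_true,
      (g.lab _ hx).2.2.trans hF] at h b3 b4
    exact h

theorem lab1_sound (g : Good K T N) (i : Inv T N allp s ((o, c) ::ₘ R'))
    (hm : ∀ z ∈ (o, c) ::ₘ R', Le (o, c) z) (ho : Sm s.Pi o) {lo hi : ℕ} (h1 : lo ≤ c) (h2 : c ≤ hi)
    {t : ℕ → List ℕ → ℕ → Bool} (h : lab1 s.Pi s.C lo hi t o = true) :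
    ∃ U, (∀ r ∈ U, r.Prime) ∧ t o U c = true := by
  have hx0 : (o, c) ∈ (o, c) ::ₘ R' := mem_cons_self _ _
  have hx : (o, c) ∈ T := i.memR hx0
  obtain ⟨a1, ⟨w, hw⟩, -⟩ := g.lab _ hx
  have hc : 0 < c := g.cpos hx
  dsimp only at a1 hw
  obtain ⟨pr, U, b1, b2, b3, b4⟩ := prK_eq s.Pi s.C o
  have hw0 : 0 < w := Nat.pos_of_mul_pos_left (hw ▸ hc)
  have a2 : o ≤ hi := le_trans (Nat.le_of_dvd hc ⟨w, hw⟩) h2
  have hup : ∀ r, r.Prime → r ∣ c → r ∣ o ∨ (r * o ∈ s.C.map Prod.fst ∧ (r = 2 ∨ r ∈ s.Pi)) :=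
    fun r hr hd => by
    by_cases h3 : r ∣ o
    · exact Or.inl h3
    obtain ⟨y, hy, h4, h5⟩ := i.memC g hx0 hm hr hd h3
    obtain ⟨z, hz, h6, h7⟩ := g.up _ hx r hr hd h3
    refine Or.inr ⟨List.mem_map.2 ⟨y, hy, h4⟩, ?_⟩
    rcases i.cases hz with h8 | h8
    · exact i.piP z h8 r hr (h6 ▸ Dvd.intro _ rfl)
    · have := (hm z h8).2 (Nat.le_of_dvd hc h7)
      have := hr.one_lt
      dsimp only at *
      nlinarith
  have hs : ∀ r, r.Prime → r ∣ w → r = 2 ∨ r ∈ pr := fun r hr hd => by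
    rcases hup r hr (hw ▸ hd.mul_left _) with h3 | ⟨h3, h4⟩
    · exact (ho r hr h3).imp_right fun h4 => b3 r h4 (Or.inl h3)
    · exact h4.imp_right fun h4 => b3 r h4 (Or.inr h3)
  have hpr : ∀ r ∈ pr, r.Prime := fun r hr => (i.pi r (b1 r hr)).1
  have hU : ∀ r ∈ U, r.Prime := fun r hr => (i.pi r (b2 r hr)).1
  simp only [lab1, rec_eq, Nat.ble_eq, not_le.2 a1, a2, if_true, if_false, b4, Nat.beq_eq, dvF,
    has_iff, Nat.mul_eq] at h
  have key : ∀ f, smoothAll pr hi (pow2 lo hi f) o = true → f c = true := fun f hf =>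
    hw ▸ smooth2_sound hpr hf hw0 hs (hw ▸ h2) fun u k e hu =>
      pow2_sound hu k (e ▸ hw ▸ h1) (e ▸ hw ▸ h2)
  split_ifs at h with h3 h4
  · exact ⟨U, hU, key _ h⟩
  · exact ⟨2 :: U, by simpa [Nat.prime_two] using hU, key _ h⟩
  · refine ⟨U, hU, hw ▸ smoothAll_sound hpr h hw0 (fun r hr hd => (hs r hr hd).resolve_left ?_)
      (hw ▸ h2)⟩
    rintro rfl
    rcases hup 2 hr (hw ▸ hd.mul_left _) with h5 | h5
    · exact h3 h5
    · exact h4 h5.1

end Cfsg.Lib.FewCl
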