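import Cfsg.Agent.FewCl.Leaf

/-! Runs of the search for eleven classes. -/

set_option Elab.async false
set_option maxRecDepth 100000

namespace Cfsg.Lib.FewCl

theorem run11_0 : part 11 0 6233 true false leafG 5 5 11 0 (st0 [3] [2, 3, 6] 1 5) = true := by
  decide +kernel

theorem run11_1 : part 11 0 6233 true false leafG 5 5 11 1 (st0 [3] [2, 3, 6] 1 5) = true := by
  decide +kernel

theorem run11_2 : part 11 0 6233 true false leafG 5 5 11 2 (st0 [3] [2, 3, 6] 1 5) = true := by
  decide +kernel

theorem run11_3 : part 11 0 6233 true false leafG 5 5 11 3 (st0 [3] [2, 3, 6] 1 5) = true := by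
  decide +kernel

end Cfsg.Lib.FewCl
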