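import Cfsg.Agent.FewCl.Leaf

/-! Runs of the search for eleven classes. -/

set_option Elab.async false
set_option maxRecDepth 100000

namespace Cfsg.Lib.FewCl

theorem run11_7 : part 11 0 6233 true false leafG 5 5 11 7 (st0 [3] [2, 3, 6] 1 5) = true := by
  decide +kernel

theorem run11_8 : part 11 0 6233 true false leafG 5 5 11 8 (st0 [3] [2, 3, 6] 1 5) = true := by
  decide +kernel

theorem run11_9 : part 11 0 6233 true false leafG 5 5 11 9 (st0 [3] [2, 3, 6] 1 5) = true := by
  decide +kernel

theorem run11_10 : part 11 0 6233 true false leafG 5 5 11 10 (st0 [3] [2, 3, 6] 1 5) = true := by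
  decide +kernel

end Cfsg.Lib.FewCl
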