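import Cfsg.Agent.FewCl.Leaf

/-! Runs of the search for nine and ten classes, and for fixed orders. -/

set_option Elab.async false
set_option maxRecDepth 100000

namespace Cfsg.Lib.FewCl

theorem run9 : lev 9 0 6233 true false 0 (last 9 6233 leafG) 8 (st0 [3] [2, 3, 6] 1 5) = true := by
  decide +kernel

theorem run10 : lev 10 0 6233 true false 0 (last 10 6233 leafG) 9 (st0 [3] [2, 3, 6] 1 5) = true := by
  decide +kernel

theorem run5616_9 : lev 9 5616 1 false true 0 (last 9 1 leafN) 8
    (st0 [3, 13] [2, 3, 13, 6] 5616 5) = true := by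
  decide +kernel

theorem run5616_10 : lev 10 5616 1 false true 0 (last 10 1 leafN) 9
    (st0 [3, 13] [2, 3, 13, 6] 5616 5) = true := by
  decide +kernel

theorem run5616_11 : lev 11 5616 1 false true 0 (last 11 1 leafN) 10
    (st0 [3, 13] [2, 3, 13, 6] 5616 5) = true := by
  decide +kernel

theorem run6048_9 : lev 9 6048 1 true true 0 (last 9 1 leafN) 8
    (st0 [3, 7] [2, 3, 7, 6] 6048 5) = true := by
  decide +kernel

theorem run6048_10 : lev 10 6048 1 true true 0 (last 10 1 leafN) 9
    (st0 [3, 7] [2, 3, 7, 6] 6048 5) = true := by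
  decide +kernel

theorem run6048_11 : lev 11 6048 1 true true 0 (last 11 1 leafN) 10
    (st0 [3, 7] [2, 3, 7, 6] 6048 5) = true := by
  decide +kernel

theorem run175560_9 : lev 9 175560 1 false true 0 (last 9 1 leafN) 8
    (st0 [3, 5, 7, 11, 19] [2, 3, 5, 7, 11, 19, 6] 175560 5) = true := by
  decide +kernel

theorem run175560_10 : lev 10 175560 1 false true 0 (last 10 1 leafN) 9
    (st0 [3, 5, 7, 11, 19] [2, 3, 5, 7, 11, 19, 6] 175560 5) = true := by
  decide +kernel

theorem run175560_11 : lev 11 175560 1 false true 0 (last 11 1 leafN) 10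
    (st0 [3, 5, 7, 11, 19] [2, 3, 5, 7, 11, 19, 6] 175560 5) = true := by
  decide +kernel

theorem run29120_9 : lev 9 29120 1 false true 0 (last 9 1 leafS) 8
    (st0 [3, 5, 7, 13] [2, 5, 7, 13] 29120 5) = true := by
  decide +kernel

theorem run29120_10 : lev 10 29120 1 false true 0 (last 10 1 leafS) 9
    (st0 [3, 5, 7, 13] [2, 5, 7, 13] 29120 5) = true := by
  decide +kernel

end Cfsg.Lib.FewCl
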