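import Cfsg.Agent.FewCl.Node

/-! Soundness of the search, end. -/

namespace Cfsg.Lib.FewCl

open Multiset

variable {K N : ℕ} {T R R' : MT} {allp h6 : Bool} {s : St} {o c : ℕ}

theorem bounds (g : Good K T N) (i : Inv T N allp s ((o, c) ::ₘ R'))
    (hm : ∀ z ∈ (o, c) ::ₘ R', Le (o, c) z) {N0 : ℕ} (hN0 : N0 ≤ N) :
    (if s.lc ≤ s.L / s.A + 1 then s.L / s.A + 1 else s.lc) ≤ c ∧
      c ≤ hiB s.A s.L (R'.card + 1) N0 := by
  have hx0 : (o, c) ∈ (o, c) ::ₘ R' := mem_cons_self _ _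
  have hx : (o, c) ∈ T := i.memR hx0
  have hc : 0 < c := g.cpos hx
  obtain ⟨t, e1, e2, -, -⟩ := i.ex
  have ht : 0 < t := Nat.pos_of_mul_pos_left (e1 ▸ g.pos)
  obtain ⟨u, hu⟩ : c ∣ N := (g.lab _ hx).2.2
  have e3 : N / c = u := by rw [hu, Nat.mul_div_cancel_left _ hc]
  have e4 : sm ((o, c) ::ₘ R') N (fun _ => True) ≤ (R'.card + 1) * u := by
    rw [← card_cons (o, c)]
    exact sm_le_card _ fun z hz => e3 ▸ Nat.div_le_div_left (hm z hz).1 hc
  have e5 : u < s.A * t := by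
    rw [e2, sm_cons, if_pos trivial, e3]; omega
  have hA : 0 < s.A := Nat.pos_of_mul_pos_right (lt_of_le_of_lt (Nat.zero_le _) e5)
  have hcN : c ≤ N := Nat.le_of_dvd g.pos ⟨u, hu⟩
  generalize R'.card + 1 = m at *
  have e6 : c * (s.A * t) ≤ c + m * N := by
    have := Nat.mul_le_mul_left c e4
    rw [e2, mul_add, mul_one, mul_comm m, hu, mul_assoc, mul_comm u, ← hu]
    omega
  constructor
  · have b1 : s.L / s.A < c := by
      rw [Nat.div_lt_iff_lt_mul hA]
      refine Nat.lt_of_mul_lt_mul_right (a := t) ?_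
      rw [← e1, hu, mul_assoc]
      exact Nat.mul_lt_mul_of_pos_left e5 hc
    have := (i.last _ hx0).1
    split_ifs
    · exact b1
    · exact this
  · have b1 : c ≤ (m + 1) * s.L / s.A := by
      rw [Nat.le_div_iff_mul_le hA]
      refine Nat.le_of_mul_le_mul_right ?_ ht
      rw [mul_assoc, mul_assoc, ← e1]; nlinarith
    simp only [hiB, force_eq, rec_eq, Nat.ble_eq, Nat.mul_eq, Nat.sub_eq, divE, Nat.succ_eq_add_one]
    split_ifs with h1 h2
    · exact b1
    · exact b1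
    · rw [Nat.le_div_iff_mul_le (by omega), Nat.mul_sub, Nat.sub_le_iff_le_add]
      refine Nat.le_of_mul_le_mul_right ?_ ht
      have b2 := Nat.mul_le_mul_right N0 e6
      have b3 : c * N0 ≤ c * (s.L * t) := Nat.mul_le_mul_left _ (e1 ▸ hN0)
      rw [e1] at b2
      nlinarith

theorem smooth2_pow {pr : List ℕ} (hp : ∀ r ∈ pr, r.Prime) {hi : ℕ} {f : ℕ → Bool} {v : ℕ}
    (h : smoothAll pr hi (powAll 2 hi f 64) v = true) {w : ℕ} (hw : 0 < w)
    (hs : ∀ r, r.Prime → r ∣ w → r = 2 ∨ r ∈ pr) (hk : v * w ≤ hi) : f (v * w) = true :=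
  smooth2_sound hp h hw hs hk fun _ j e hu => powAll_sound two_pos hu j (e ▸ hk)

theorem prime_PL : ∀ r ∈ PL, r.Prime ∧ r ≠ 2 := by
  simp only [PL, List.forall_mem_cons]
  norm_num

theorem mem_PL : ∀ r < 151, r.Prime → r = 2 ∨ r ∈ PL := by decide +kernel

theorem node_sound (g : Good K T N) (i : Inv T N allp s R) {m : ℕ} (hR : R.card = m + 1) {F NMIN : ℕ}
    (hF : N ∣ F) (hN : NMIN ≤ N) (hh : h6 = true → (6, 6) ∈ T → 2 ≤ cn T 2) {k0 : St → Bool}
    (h0 : node K F NMIN h6 allp (m + 1) k0 s = true) :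
    ∃ s' R', Inv T N allp s' R' ∧ R'.card = m ∧
      ∀ k, node K F NMIN h6 allp (m + 1) k s = true → k s' = true := by
  obtain ⟨⟨o, c⟩, R', rfl, hm⟩ := exists_min (R := R) (by rintro rfl; simp at hR)
  obtain ⟨x2, x3, N0, hN0, hM, hpre⟩ := pre_sound g i hN
  obtain ⟨hlo, hhi⟩ := bounds g i hm hN0
  have hm' : R'.card = m := by simpa using hR
  have hx0 : (o, c) ∈ (o, c) ::ₘ R' := mem_cons_self _ _
  have hx : (o, c) ∈ T := i.memR hx0
  have hc : 0 < c := g.cpos hx
  obtain ⟨ho1, hoc, hcN⟩ := g.lab _ hx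
  dsimp only at ho1 hoc hcN
  rw [hR] at hpre
  rw [hm'] at hhi
  set lo := (if s.lc ≤ s.L / s.A + 1 then s.L / s.A + 1 else s.lc) with elo
  set hi := hiB s.A s.L (m + 1) N0 with ehi
  set tt := fun k => tr F h6 k s.P s.C s.Ob s.S s.e2 s.s6 s.A s.L s.lc s.lo s.c2 s.c3 s.I s.s3 lo
    with ett
  have key : ∀ k, node K F NMIN h6 allp (m + 1) k s = true →
      if m + 1 ≤ s.Ob.length + x2 + x3 then
        (∀ y ∈ s.Ob, lab1 s.Pi s.C lo hi (tt k s.Pi) y.1 = true) ∧
        (0 < x2 → 2 ∉ s.Ob.map Prod.fst → lab1 s.Pi s.C lo hi (tt k s.Pi) 2 = true) ∧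
        (0 < x3 → 3 ∉ s.Ob.map Prod.fst → lab1 s.Pi s.C lo hi (tt k s.Pi) 3 = true)
      else divAll s.Pi (lab1 s.Pi s.C lo hi (tt k s.Pi)) 1 = true ∧ (allp = false →
        if m + 1 ≤ s.Ob.length + x2 + x3 + 1 then new1 s.Pi lo hi (tt k) = true
        else new2 s.Pi lo hi (tt k) = true) := by
    intro k h
    have h1 := hpre _ h
    simp only [force_eq, rec_eq, Nat.ble_eq, divE, Nat.succ_eq_add_one, ← elo, ← ehi, hlo.trans hhi,
      if_true, allL_iff, has_iff] at h1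
    by_cases a1 : m + 1 ≤ s.Ob.length + x2 + x3
    · rw [if_pos a1] at h1 ⊢
      split_ifs at h1 with b1 b2 b3 b4 b5 b6 b7 b8 b9 <;> first
        | exact ⟨b1, by omega, by omega⟩ | exact ⟨b1, by omega, by tauto⟩
        | exact ⟨b1, by tauto, by omega⟩ | exact ⟨b1, by tauto, by tauto⟩
    · rw [if_neg a1] at h1 ⊢
      split_ifs at h1 with b1 b2 b3
      · exact ⟨b1, by simp [b2]⟩
      · exact ⟨b1, fun _ => by rw [if_pos b3]; exact h1⟩
      · exact ⟨b1, fun _ => by rw [if_neg b3]; exact h1⟩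
  set M := ((s.Ob.map Prod.fst : List ℕ) : Multiset ℕ) + replicate x2 2 + replicate x3 3 with eM
  have hMc : M.card = s.Ob.length + x2 + x3 := by simp [eM]
  have hMm : ∀ d ∈ M, d ∈ s.Ob.map Prod.fst ∨ (0 < x2 ∧ d = 2) ∨ (0 < x3 ∧ d = 3) := fun d hd => by
    simp only [eM, mem_add, mem_coe, mem_replicate, ← Nat.pos_iff_ne_zero] at hd
    tauto
  have hMs : ∀ d ∈ M, Sm s.Pi d := fun d hd r hr h => by
    rcases hMm d hd with h1 | ⟨-, rfl⟩ | ⟨-, rfl⟩
    · obtain ⟨y, hy, rfl⟩ := List.mem_map.1 h1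
      exact i.piO y hy r hr h
    · exact Or.inl ((Nat.prime_dvd_prime_iff_eq hr Nat.prime_two).1 h)
    · exact Or.inr ((Nat.prime_dvd_prime_iff_eq hr Nat.prime_three).1 h ▸ i.pi3)
  have hfull : m + 1 ≤ s.Ob.length + x2 + x3 → o ∈ M := fun h => by
    rw [eq_of_le_of_card_le hM (by rw [card_map, hR, hMc]; exact h)]
    exact mem_map_of_mem _ hx0
  by_cases ho : Sm s.Pi o
  · obtain ⟨s', i', hk⟩ := tr_sound g i hm hF hh i.pi (fun _ h => h) ho
    refine ⟨s', R', i', hm', fun k h => ?_⟩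
    suffices h1 : lab1 s.Pi s.C lo hi (tt k s.Pi) o = true by
      obtain ⟨U, hU, h2⟩ := lab1_sound g i hm ho hlo hhi h1
      exact hk k lo U hlo hU h2
    have h1 := key k h
    split_ifs at h1 with a1
    · by_cases h2 : o ∈ s.Ob.map Prod.fst
      · obtain ⟨y, hy, rfl⟩ := List.mem_map.1 h2
        exact h1.1 y hy
      · rcases hMm o (hfull a1) with h3 | ⟨h3, rfl⟩ | ⟨h3, rfl⟩
        · exact absurd h3 h2
        · exact h1.2.1 h3 h2
        · exact h1.2.2 h3 h2
    all_goals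
      simpa using divAll_sound (fun r hr => (i.pi r hr).1) h1.1
        (dvd_four_mul_prod (g.shape _ hx).1 (g.shape _ hx).2 ho)
  have hoM : o ∉ M := fun h => ho (hMs o h)
  have a1 : ¬ m + 1 ≤ s.Ob.length + x2 + x3 := fun h => hoM (hfull h)
  have hall : allp = false := by
    by_contra h
    exact ho fun r hr hd => i.piA (by simpa using h) r hr (hd.trans (hoc.trans hcN))
  subst hall
  simp only [if_neg a1, true_imp_iff] at key
  by_cases a2 : m + 1 ≤ s.Ob.length + x2 + x3 + 1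
  · simp only [if_pos a2] at key
    have hM' : M = R'.map Prod.fst := by
      rw [map_cons, le_cons_of_notMem hoM] at hM
      exact eq_of_le_of_card_le hM (by rw [card_map, hm', hMc]; omega)
    have hz : ∀ z ∈ T, z = (o, c) ∨ Sm s.Pi z.1 := fun z hz => by
      rcases i.cases hz with h | h
      · exact Or.inr (i.piP z h)
      · exact (mem_cons.1 h).imp_right fun h => hMs _ (hM' ▸ mem_map_of_mem _ h)
    obtain ⟨q, hq, hqo, hq2⟩ : ∃ q, q.Prime ∧ q ∣ o ∧ ¬ (q = 2 ∨ q ∈ s.Pi) := by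
      simpa only [Sm, not_forall, exists_prop] using ho
    have hz' : ∀ z ∈ T, q ∣ z.1 → z = (o, c) := fun z h1 h2 =>
      (hz z h1).resolve_right fun h => hq2 (h q hq h2)
    obtain rfl : o = q := by
      obtain ⟨z, h1, h2, -⟩ := g.down _ hx q hq.one_lt hqo
      rw [hz' z h1 (h2 ▸ dvd_rfl)] at h2
      exact h2
    have hcn : cn T o = 1 := by
      rw [i.split, cn_add, cn_cons, if_pos rfl, cn, cn, ← hM', count_eq_zero_of_notMem hoM,
        count_eq_zero_of_notMem]
      intro h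
      obtain ⟨y, hy, h1⟩ := mem_map.1 h
      exact hq2 (i.piP y (mem_coe.1 hy) o hq (h1 ▸ dvd_rfl))
    obtain ⟨a, ha⟩ : ∃ a, c = o * o ^ a := by
      have h1 : c = o ^ c.primeFactorsList.length := Nat.eq_prime_pow_of_unique_prime_dvd hc.ne'
        fun {r} hr hd => by
          by_contra h
          have h2 : ¬ r ∣ o := fun h2 => h ((Nat.prime_dvd_prime_iff_eq hr hq).1 h2)
          obtain ⟨y, hy, h3, -⟩ := g.up _ hx r hr hd h2
          rw [hz' y hy (h3 ▸ Dvd.intro_left _ rfl)] at h3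
          have := hr.one_lt
          dsimp only at h3
          nlinarith
      rcases hl : c.primeFactorsList.length with _ | a
      · rw [hl, pow_zero] at h1
        have := Nat.le_of_dvd hc hoc
        omega
      · exact ⟨a, by rw [h1, hl, pow_succ']⟩
    obtain ⟨w, hw⟩ : 2 ∣ o - 1 := (hq.even_sub_one fun h => hq2 (Or.inl h)).two_dvd
    have hw0 : 0 < w := by omega
    have hoc' := Nat.le_of_dvd hc hoc
    obtain ⟨s', i', hk⟩ := tr_sound g i hm hF hh (Pi := o :: s.Pi) (fun r hr => by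
      rcases List.mem_cons.1 hr with rfl | hr
      · exact ⟨hq, fun h => hq2 (Or.inl h)⟩
      · exact i.pi r hr) (fun _ h => List.mem_cons_of_mem _ h) fun r hr hd =>
        Or.inr ((Nat.prime_dvd_prime_iff_eq hr hq).1 hd ▸ List.mem_cons_self)
    refine ⟨s', R', i', hm', fun k h => hk k lo [] hlo (by simp) ?_⟩
    have h1 := smooth2_pow (fun r hr => (i.pi r hr).1) (key k h).2 hw0 (fun r hr hd => by
      have h2 : r ∣ o - 1 := hw ▸ hd.mul_left _
      obtain ⟨z, h3, h4⟩ := g.cauchy r hr (h2.trans (g.one o hq hcn))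
      rcases hz z h3 with rfl | h5
      · have := Nat.le_of_dvd (by omega) h2
        dsimp only at h4
        omega
      · exact h5 r hr (h4 ▸ dvd_rfl)) (by omega)
    have e1 : 2 * w + 1 = o := by omega
    have b1 : (if lo ≤ o then true else Nat.ble (o * o) hi) = true := by
      split_ifs with h2
      · rfl
      · rcases a with _ | a
        · rw [pow_zero, mul_one] at ha
          omega
        · refine Nat.ble_eq.mpr (le_trans ?_ hhi)
          rw [ha, pow_succ', ← mul_assoc]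
          exact Nat.le_mul_of_pos_right _ (by positivity)
    have b2 : (if o.gcd PP = 1 then true else Nat.beq (o.gcd PP) o) = true := by
      split_ifs with h2
      · rfl
      · exact Nat.beq_eq.mpr (((Nat.dvd_prime hq).1 (Nat.gcd_dvd_left o PP)).resolve_left h2)
    simp only [force_eq, rec_eq, Nat.succ_eq_add_one, e1, Nat.ble_eq, Nat.beq_eq, Nat.mul_eq, b1, b2,
      if_true, mem_iff, show o ∉ s.Pi from fun h => hq2 (Or.inr h), if_false] at h1
    have h2 := powAll_sound hq.pos h1 a (ha ▸ hhi)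
    rwa [← ha] at h2
  · simp only [if_neg a2, new2, rec_eq, Nat.ble_eq] at key
    have hhi' : hi ≤ 150 := by
      by_contra h
      simpa [h] using (key k0 h0).2
    simp only [if_pos hhi'] at key
    set np := PL.filter fun r => if Nat.beq (Nat.mod c r) 0 = true then
      if mem r s.Pi = true then false else true else false with enp
    have hnp : ∀ r, r.Prime → r ∣ c → r = 2 ∨ r ∈ s.Pi ∨ r ∈ np := fun r hr hd => by
      rcases mem_PL r (by have := Nat.le_of_dvd hc hd; omega) hr with h | h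
      · exact Or.inl h
      · by_cases h1 : r ∈ s.Pi
        · exact Or.inr (Or.inl h1)
        · exact Or.inr (Or.inr (List.mem_filter.2 ⟨h, by simp only [dvE, hd, mem_iff, h1, if_true, if_false]⟩))
    have hPi : ∀ r ∈ np ++ s.Pi, r.Prime ∧ r ≠ 2 := fun r hr => by
      rcases List.mem_append.1 hr with h | h
      · exact prime_PL r (List.mem_filter.1 h).1
      · exact i.pi r h
    have hs : ∀ r, r.Prime → r ∣ c → r = 2 ∨ r ∈ np ++ s.Pi := fun r hr hd => by
      have := hnp r hr hd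
      rw [List.mem_append]; tauto
    obtain ⟨s', i', hk⟩ := tr_sound g i hm hF hh hPi (fun _ h => List.mem_append_right _ h)
      fun r hr hd => hs r hr (hd.trans hoc)
    refine ⟨s', R', i', hm', fun k h => hk k lo
      (2 :: (np ++ s.Pi).filter fun r => Nat.beq (Nat.mod c r) 0) hlo (fun r hr => ?_) ?_⟩
    · rcases List.mem_cons.1 hr with rfl | hr
      · exact Nat.prime_two
      · exact (hPi r (List.mem_filter.1 hr).1).1
    have h1 := rangeAll_sound (key k h).2 hlo (by simp only [Nat.sub_eq, Nat.succ_eq_add_one]; omega)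
    rw [filtK_eq, List.append_nil, ← enp] at h1
    have h2 : np ≠ [] := fun h2 => ho fun r hr hd => by simpa [h2] using hnp r hr (hd.trans hoc)
    obtain ⟨a, l, e⟩ := List.exists_cons_of_ne_nil h2
    have h3 : filtK np (fun _ => true) s.Pi (fun Pi' => filtK Pi' (fun r => Nat.beq (Nat.mod c r) 0) []
        fun pr => divAll pr (fun o => if o ≤ 1 then true else
          if Nat.beq (Nat.mod c o) 0 = true then tt k Pi' o (2 :: pr) c else true) 1) = true := by
      rw [e] at h1 ⊢; exact h1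
    rw [filtK_eq, filtK_eq, List.filter_true, List.append_nil] at h3
    have h4 := divAll_sound (fun r hr => (hPi r (List.mem_filter.1 hr).1).1) h3
      (dvd_four_mul_prod (g.shape _ hx).1 (g.shape _ hx).2 fun r hr hd =>
        (hs r hr (hd.trans hoc)).imp_right fun h => List.mem_filter.2 ⟨h, (dvE _ _).mpr (hd.trans hoc)⟩)
    simpa only [one_mul, not_le.2 ho1, if_false, dvE, hoc, if_true] using h4

theorem lev_sound (g : Good K T N) {F NMIN : ℕ} (hF : N ∣ F) (hN : NMIN ≤ N)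
    (hh : h6 = true → (6, 6) ∈ T → 2 ≤ cn T 2) {b d : ℕ} (i : Inv T N allp s R) (hR : R.card = b + d)
    {k0 : St → Bool} (h0 : lev K F NMIN h6 allp b k0 d s = true) :
    ∃ s' R', Inv T N allp s' R' ∧ R'.card = b ∧
      ∀ k, lev K F NMIN h6 allp b k d s = true → k s' = true := by
  induction d generalizing s R with
  | zero => exact ⟨s, R, i, hR, fun _ h => h⟩
  | succ d ih =>
    obtain ⟨s1, R1, i1, h1, h2⟩ := node_sound g i (m := b + d) hR hF hN hh h0
    obtain ⟨s2, R2, i2, h3, h4⟩ := ih i1 h1 (h2 _ h0)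
    exact ⟨s2, R2, i2, h3, fun k h => h4 k (h2 _ h)⟩

theorem full_sound (g : Good K T N) {F NMIN : ℕ} (hF : N ∣ F) (hN : NMIN ≤ N)
    (hh : h6 = true → (6, 6) ∈ T → 2 ≤ cn T 2) {d : ℕ} (i : Inv T N allp s R) (hR : R.card = d)
    {leaf : ℕ → Tb → Bool} (h0 : lev K F NMIN h6 allp 0 (last K NMIN leaf) d s = true) :
    ∃ P : Tb, T = P ∧ leaf N P = true := by
  obtain ⟨s', R', i', h1, h2⟩ := lev_sound g hF hN hh i (b := 0) (by omega) h0
  obtain rfl : R' = 0 := card_eq_zero.1 h1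
  obtain ⟨x2, x3, N0, -, -, h3⟩ := pre_sound g i' hN
  exact ⟨s'.P, by simpa using i'.split, final_sound g i' hN (h3 _ (h2 _ h0))⟩

theorem part_sound (g : Good K T N) {F NMIN : ℕ} (hF : N ∣ F) (hN : NMIN ≤ N)
    (hh : h6 = true → (6, 6) ∈ T → 2 ≤ cn T 2) {b d n : ℕ} (hn : 0 < n) (i : Inv T N allp s R)
    (hR : R.card = b + d) {leaf : ℕ → Tb → Bool}
    (h0 : ∀ j < n, part K F NMIN h6 allp leaf b d n j s = true) :
    ∃ P : Tb, T = P ∧ leaf N P = true := by
  obtain ⟨s', R', i', h1, h2⟩ := lev_sound g hF hN hh i hR (h0 0 hn)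
  have h3 := h2 _ (h0 _ (Nat.mod_lt (s'.A + s'.L + s'.lc) hn))
  refine full_sound g hF hN hh i' h1 ?_
  rwa [rec_eq, if_pos (by exact Nat.beq_eq.mpr rfl)] at h3

theorem inv_st0 (g : Good K T N) {Pi B : List ℕ} {L c : ℕ} (hL : L ∣ N) (hc : ∀ x ∈ T, c ≤ x.2)
    (hPi : ∀ r ∈ Pi, r.Prime ∧ r ≠ 2) (h3 : 3 ∈ Pi) (hB : ∀ d ∈ B, Sm Pi d ∧ ∃ x ∈ T, x.1 = d)
    (hB' : B.Nodup) (ha : allp = true → Sm Pi N) : Inv T N allp (st0 Pi B L c) T := by
  refine ⟨by simp [st0], by simp [st0], fun z hz => ⟨hc z hz, fun h => le_trans ?_ h⟩, ?_, rfl, rfl,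
    hPi, h3, by simp [st0], ?_, ha, fun _ _ _ => le_rfl, ?_, ?_, by simp [st0], by simp [st0],
    by simp [st0]⟩
  · exact Nat.le_of_dvd (g.cpos hz) (g.lab z hz).2.1
  · obtain ⟨t, ht⟩ := hL
    exact ⟨t, ht, ht.symm.trans g.cls.symm, by simp [st0, sm], by simp [st0, sm]⟩
  · intro y hy
    obtain ⟨d, hd, rfl⟩ := List.mem_map.1 hy
    exact (hB d hd).1
  · intro y hy
    obtain ⟨d, hd, rfl⟩ := List.mem_map.1 hy
    obtain ⟨x, hx, h⟩ := (hB d hd).2
    exact ⟨x, hx, h, one_dvd _⟩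
  · simpa [st0, List.map_map, Function.comp_def] using hB'

end Cfsg.Lib.FewCl
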