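import Cfsg.Agent.FewCl.Search
import Mathlib.Algebra.BigOperators.Group.List.Basic
import Mathlib.Data.Nat.Factorization.Basic
import Mathlib.Data.Nat.Log
import Mathlib.Tactic

/-! Specifications of the combinators of the search. -/

namespace Cfsg.Lib.FewCl

@[simp] theorem force_eq {β : Type} (x : ℕ) (f : ℕ → β) : force x f = f x := rfl

theorem rec_eq {β : Type} (a b : β) (c : Bool) :
    @Bool.rec (fun _ => β) b a c = if c = true then a else b := by cases c <;> rfl

theorem divE (a b : ℕ) : Nat.div a b = a / b := rfl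

theorem dvE (a b : ℕ) : (Nat.beq (Nat.mod b a) 0 = true) = (a ∣ b) := by
  rw [Nat.beq_eq]; exact propext (Nat.dvd_iff_mod_eq_zero ..).symm

theorem dvF (a b : ℕ) : (Nat.mod b a = 0) = (a ∣ b) := propext (Nat.dvd_iff_mod_eq_zero ..).symm

theorem allL_iff {α : Type} {l : List α} {f : α → Bool} :
    allL l f = true ↔ ∀ a ∈ l, f a = true := by
  induction l with
  | nil => simp [allL]
  | cons a l ih =>
    have e : allL (a :: l) f = Bool.rec false (allL l f) (f a) := rfl
    rw [e]; cases h : f a <;> simp [h, ih]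

theorem anyL_iff {α : Type} {l : List α} {f : α → Bool} :
    anyL l f = true ↔ ∃ a ∈ l, f a = true := by
  induction l with
  | nil => simp [anyL]
  | cons a l ih =>
    have e : anyL (a :: l) f = Bool.rec (anyL l f) true (f a) := rfl
    rw [e]; cases h : f a <;> simp [h, ih]

theorem sumL_eq {α : Type} (l : List α) (p : α → Bool) (f : α → ℕ) :
    sumL l p f = ((l.filter p).map f).sum := by
  induction l with
  | nil => rfl
  | cons a l ih =>
    have e : sumL (a :: l) p f = Bool.rec (sumL l p f) (f a + sumL l p f) (p a) := rfl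
    rw [e]; cases h : p a <;> simp [h, ih]

theorem filtK_eq {α : Type} (l : List α) (p : α → Bool) (z : List α) (k : List α → Bool) :
    filtK l p z k = k (l.filter p ++ z) := by
  induction l generalizing k with
  | nil => rfl
  | cons a l ih =>
    have e : filtK (a :: l) p z k =
      Bool.rec (filtK l p z k) (filtK l p z fun l' => k (a :: l')) (p a) := rfl
    rw [e]; cases h : p a <;> simp [h, ih]

theorem mem_iff {a : ℕ} {l : List ℕ} : mem a l = true ↔ a ∈ l := by
  induction l with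
  | nil => simp [mem]
  | cons b l ih =>
    have e : mem a (b :: l) = Bool.rec (mem a l) true (Nat.beq b a) := rfl
    simp only [e, rec_eq, Nat.beq_eq]
    split_ifs with h
    · simp [h]
    · simp [ih, Ne.symm h]

theorem cnt_eq (P : Tb) (d : ℕ) : cnt P d = (P.map Prod.fst).count d := by
  induction P with
  | nil => rfl
  | cons x l ih =>
    have e : cnt (x :: l) d = Bool.rec (cnt l d) (cnt l d + 1) (Nat.beq x.1 d) := rfl
    simp only [e, rec_eq, Nat.beq_eq, List.map_cons, List.count_cons, ih]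
    split_ifs with h h' h' <;> simp_all

theorem has_iff {P : Tb} {d : ℕ} : has P d = true ↔ d ∈ P.map Prod.fst := by
  induction P with
  | nil => simp [has]
  | cons x l ih =>
    have e : has (x :: l) d = Bool.rec (has l d) true (Nat.beq x.1 d) := rfl
    simp only [e, rec_eq, Nat.beq_eq, List.map_cons, List.mem_cons]
    split_ifs with h
    · simp [h]
    · rw [ih]; simp [Ne.symm h]

theorem len_eq (P : Tb) : len P = P.length := by
  induction P with
  | nil => rfl
  | cons x l ih => exact congrArg Nat.succ ih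

theorem powAll_sound {r hi : ℕ} {f : ℕ → Bool} (hr : 0 < r) {n v : ℕ}
    (h : powAll r hi f n v = true) (k : ℕ) (hk : v * r ^ k ≤ hi) : f (v * r ^ k) = true := by
  induction n generalizing v k with
  | zero => exact absurd h (by simp [powAll])
  | succ n ih =>
    have e : powAll r hi f (n + 1) v = Bool.rec true
      (Bool.rec false (powAll r hi f n (v * r)) (f v)) (Nat.ble v hi) := rfl
    have hv : v ≤ hi := le_trans (Nat.le_mul_of_pos_right _ (pow_pos hr k)) hk
    simp only [e, rec_eq, Nat.ble_eq, if_pos hv] at h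
    split_ifs at h with h1
    cases k with
    | zero => simpa using h1
    | succ k =>
      have e2 : v * r ^ (k + 1) = v * r * r ^ k := by ring
      rw [e2] at hk ⊢
      exact ih h k hk

theorem smoothAll_sound {pr : List ℕ} (hp : ∀ r ∈ pr, r.Prime) {hi : ℕ} {f : ℕ → Bool} {v : ℕ}
    (h : smoothAll pr hi f v = true) {w : ℕ} (hw : 0 < w) (hs : ∀ r, r.Prime → r ∣ w → r ∈ pr)
    (hk : v * w ≤ hi) : f (v * w) = true := by
  induction pr generalizing v w with
  | nil =>
    obtain rfl : w = 1 := Nat.eq_one_iff_not_exists_prime_dvd.2 fun r hr hd => by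
      simpa using hs r hr hd
    rw [mul_one]; exact h
  | cons r pr ih =>
    have hr := hp r (by simp)
    obtain ⟨k, w', hn, rfl⟩ := Nat.exists_eq_pow_mul_and_not_dvd hw.ne' r hr.ne_one
    have hw' : 0 < w' := Nat.pos_of_mul_pos_left hw
    have h1 := powAll_sound (f := smoothAll pr hi f) (n := 64) (hi := hi) (v := v) hr.pos h k
      (le_trans (Nat.mul_le_mul_left _ (Nat.le_mul_of_pos_right _ hw')) hk)
    rw [← mul_assoc] at hk ⊢
    refine ih (fun s hs => hp s (by simp [hs])) h1 hw' (fun s hs1 hs2 => ?_) hk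
    rcases List.mem_cons.1 (hs s hs1 (hs2.mul_left _)) with rfl | h2
    · exact absurd hs2 hn
    · exact h2

theorem pow2_sound {lo hi : ℕ} {f : ℕ → Bool} {v : ℕ} (h : pow2 lo hi f v = true)
    (k : ℕ) (h1 : lo ≤ v * 2 ^ k) (h2 : v * 2 ^ k ≤ hi) : f (v * 2 ^ k) = true := by
  have h0 : powAll 2 hi f 64 (v * 2 ^ Nat.log2 (lo / v)) = true := by
    rw [← Nat.shiftLeft_eq]; exact h
  have hk : Nat.log2 (lo / v) ≤ k := by
    rcases Nat.eq_zero_or_pos (lo / v) with h3 | h3
    · simp [h3]
    · have h4 : 2 ^ Nat.log2 (lo / v) ≤ lo / v := Nat.log2_self_le h3.ne'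
      have h5 : lo / v ≤ 2 ^ k := Nat.div_le_of_le_mul h1
      exact (Nat.pow_le_pow_iff_right (by norm_num)).1 (h4.trans h5)
  obtain ⟨j, rfl⟩ := Nat.exists_eq_add_of_le hk
  rw [pow_add, ← mul_assoc] at h2 ⊢
  exact powAll_sound two_pos h0 j h2

theorem smooth2_sound {pr : List ℕ} (hp : ∀ r ∈ pr, r.Prime) {hi : ℕ} {g f : ℕ → Bool} {v : ℕ}
    (h : smoothAll pr hi g v = true) {w : ℕ} (hw : 0 < w)
    (hs : ∀ r, r.Prime → r ∣ w → r = 2 ∨ r ∈ pr) (hk : v * w ≤ hi)
    (hg : ∀ u k, u * 2 ^ k = v * w → g u = true → f (u * 2 ^ k) = true) : f (v * w) = true := by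
  obtain ⟨k, w', hn, rfl⟩ := Nat.exists_eq_pow_mul_and_not_dvd hw.ne' 2 (by norm_num)
  have hw' : 0 < w' := Nat.pos_of_mul_pos_left hw
  have e : v * w' * 2 ^ k = v * (2 ^ k * w') := by ring
  rw [← e]
  refine hg _ _ e (smoothAll_sound hp h hw' (fun r hr hd => ?_) ?_)
  · exact (hs r hr (hd.mul_left _)).resolve_left fun h2 => hn (h2 ▸ hd)
  · exact le_trans (Nat.le_mul_of_pos_right _ (by positivity)) (e ▸ hk)

theorem divAll_sound {pr : List ℕ} (hp : ∀ r ∈ pr, r.Prime) {f : ℕ → Bool} {v : ℕ}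
    (h : divAll pr f v = true) {w : ℕ} (hw : w ∣ 4 * pr.prod) : f (v * w) = true := by
  induction pr generalizing v w with
  | nil =>
    have e : divAll [] f v = Bool.rec false (Bool.rec false (f (v * 4)) (f (v * 2))) (f v) := rfl
    rw [e, rec_eq, rec_eq] at h
    split_ifs at h with h1 h2
    have h4 : w ∣ 4 := by simpa using hw
    have := Nat.le_of_dvd (by norm_num) h4
    interval_cases w <;> simp_all
  | cons r pr ih =>
    have e : divAll (r :: pr) f v = Bool.rec false (divAll pr f (v * r)) (divAll pr f v) := rfl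
    rw [e, rec_eq] at h
    split_ifs at h with h1
    rw [List.prod_cons, mul_left_comm] at hw
    obtain ⟨a, b, ha, hb, rfl⟩ := exists_dvd_and_dvd_of_dvd_mul hw
    have hp' : ∀ s ∈ pr, s.Prime := fun s hs => hp s (by simp [hs])
    rcases (Nat.dvd_prime (hp r (by simp))).1 ha with rfl | rfl
    · rw [one_mul]; exact ih hp' h1 hb
    · rw [← mul_assoc]; exact ih hp' h hb

theorem dvd_four_mul_prod {pr : List ℕ} {o : ℕ} (h8 : ¬ 8 ∣ o)
    (hsq : ∀ r, r.Prime → r * r ∣ o → r = 2) (hs : ∀ r, r.Prime → r ∣ o → r = 2 ∨ r ∈ pr) :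
    o ∣ 4 * pr.prod := by
  refine (Nat.dvd_iff_prime_pow_dvd_dvd _ _).2 fun r k hr hk => ?_
  by_cases h2 : r = 2
  · subst h2
    have : k ≤ 2 := by
      by_contra h3
      exact h8 (dvd_trans (pow_dvd_pow 2 (show 3 ≤ k by omega)) hk)
    exact (pow_dvd_pow 2 this).mul_right _
  · rcases k with _ | _ | k
    · simp
    · rw [zero_add, pow_one] at hk ⊢
      exact (List.dvd_prod ((hs r hr hk).resolve_left h2)).mul_left _
    · exact absurd (hsq r hr (dvd_trans ⟨r ^ k, by ring⟩ hk)) h2

theorem rangeAll_sound {lo n : ℕ} {f : ℕ → Bool} (h : rangeAll lo n f = true) {c : ℕ}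
    (h1 : lo ≤ c) (h2 : c < lo + n) : f c = true := by
  induction n with
  | zero => omega
  | succ n ih =>
    have e : rangeAll lo (n + 1) f = Bool.rec false (rangeAll lo n f) (f (lo + n)) := rfl
    rw [e, rec_eq] at h
    split_ifs at h with h3
    by_cases h4 : c = lo + n
    · rw [h4]; exact h3
    · exact ih h (by omega)

theorem prK_eq (Pi : List ℕ) (C : Tb) (o : ℕ) : ∃ pr U : List ℕ, (∀ r ∈ pr, r ∈ Pi) ∧
    (∀ r ∈ U, r ∈ Pi) ∧ (∀ r ∈ Pi, r ∣ o ∨ r * o ∈ C.map Prod.fst → r ∈ pr) ∧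
    ∀ k, prK Pi C o k = k pr U := by
  induction Pi with
  | nil => exact ⟨[], [], by simp, by simp, by simp, fun _ => rfl⟩
  | cons r Pi ih =>
    obtain ⟨pr, U, h1, h2, h3, h4⟩ := ih
    have e : ∀ k, prK (r :: Pi) C o k = Bool.rec (Bool.rec (prK Pi C o k)
      (prK Pi C o fun pr U => k (r :: pr) (r :: U)) (has C (r * o)))
      (prK Pi C o fun pr U => k (r :: pr) U) (Nat.beq (Nat.mod o r) 0) := fun _ => rfl
    simp only [rec_eq, dvE, has_iff, h4] at e
    by_cases a : r ∣ o
    · refine ⟨r :: pr, U, ?_, ?_, ?_, fun k => by rw [e, if_pos a]⟩ <;> grind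
    · by_cases b : r * o ∈ C.map Prod.fst
      · refine ⟨r :: pr, r :: U, ?_, ?_, ?_, fun k => by rw [e, if_neg a, if_pos b]⟩ <;> grind
      · refine ⟨pr, U, ?_, ?_, ?_, fun k => by rw [e, if_neg a, if_neg b]⟩ <;> grind

end Cfsg.Lib.FewCl
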