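import Cfsg.Agent.FewCl.Good

/-! Soundness of one step of the search. -/

namespace Cfsg.Lib.FewCl

open Multiset

variable {K N : ℕ} {T R R' : MT} {allp : Bool} {s : St} {x : ℕ × ℕ}

theorem final_sound (g : Good K T N) (i : Inv T N allp s 0) {NMIN : ℕ} (hN : NMIN ≤ N)
    {leaf : ℕ → Tb → Bool} (h : final K NMIN leaf s.P s.Pi s.A s.L s.I = true) :
    leaf N s.P = true := by
  obtain ⟨t, hN1, hA, hI, -⟩ := i.ex
  rw [sm_zero, add_zero] at hA
  obtain ⟨hA1, rfl⟩ : s.A = 1 ∧ t = 1 := ⟨Nat.eq_one_of_mul_eq_one_right hA,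
    Nat.eq_one_of_mul_eq_one_left hA⟩
  have hT : T = s.P := by simpa using i.split
  rw [mul_one] at hN1 hI
  rw [← hT] at hI
  have b1 : allL (2 :: s.Pi) (frobOk s.P N) = true := allL_iff.2 fun r _ => by
    simp only [frobOk, force_eq, rec_eq, Nat.beq_eq, divE, Nat.add_eq]
    split_ifs with h1
    · have := g.frob _ (Nat.gcd_dvd_left N _) h1
      rw [hT, sm_coe _ _ fun x => Iff.of_eq (dvE x.1 _)] at this
      exact (dvE _ _).mpr this
    · rfl
  have b2 : s.I + rz s.P s.Pi * N ≤ s.I * s.I := by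
    refine le_trans (Nat.add_le_add_left (Nat.mul_le_mul_right N ?_) _) (hI ▸ g.bfl)
    rw [rz, sumL_eq, hT, filter_coe, coe_card, List.map_const', List.sum_replicate, smul_eq_mul,
      mul_one, ← List.countP_eq_length_filter, ← List.countP_eq_length_filter]
    refine List.countP_mono_left fun y _ hy => ?_
    simp only [rec_eq, Nat.beq_eq, mem_iff, Nat.sub_eq, divE] at hy
    split_ifs at hy with h1 h2
    rw [dvE, ← cn_coe] at hy
    simpa using ⟨h1, (i.pi _ h2).1, (i.pi _ h2).2, hy⟩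
  have b3 : s.I * s.I + N ≤ s.I + K * N := hI ▸ g.bfu
  simpa only [final, rec_eq, Nat.beq_eq, Nat.ble_eq, Nat.add_eq, Nat.mul_eq, ← hN1, hA1, hN, b1, b2,
    b3, if_true] using h

theorem subAny_sound {o c n : ℕ} (C : Tb) {S : MT} (hS : S ≤ C)
    (he : ∀ y ∈ S, o ∣ y.1 ∧ y.1 ≠ o ∧ y.2 ∣ c ∧ (y.1 / o).Coprime o) {v : ℕ}
    (h1 : n ∣ v + sm S c fun _ => True) (h2 : (v + sm S c fun _ => True) * o ≤ c) :
    subAny C o c n v = true := by
  induction C generalizing S v with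
  | nil =>
    obtain rfl : S = 0 := le_zero.1 hS
    rw [sm_zero, add_zero] at h1 h2
    change Bool.rec false (Nat.ble (v * o) c) (Nat.beq (Nat.mod v n) 0) = true
    simp only [rec_eq, dvE, h1, if_true, Nat.ble_eq, h2]
  | cons y C ih =>
    change Bool.rec (subAny C o c n v) (Bool.rec (subAny C o c n (v + c / y.2)) true
      (subAny C o c n v)) (Bool.rec false (Bool.rec (Bool.rec false (Nat.beq (Nat.gcd (y.1 / o) o) 1)
        (Nat.beq (Nat.mod c y.2) 0)) false (Nat.beq y.1 o)) (Nat.beq (Nat.mod y.1 o) 0)) = true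
    by_cases hy : y ∈ S
    · obtain ⟨S', rfl⟩ := exists_cons_of_mem hy
      obtain ⟨a1, a2, a3, a4⟩ := he y hy
      rw [sm_cons, if_pos trivial, ← add_assoc] at h1 h2
      have := ih ((cons_le_cons_iff y).1 hS) (fun z hz => he z (mem_cons_of_mem hz)) h1 h2
      simp only [rec_eq, dvF, Nat.beq_eq, a1, a2, a3, a4.gcd_eq_one, this, if_true, if_false, ite_self,
        Nat.beq_refl]
    · have := ih ((le_cons_of_notMem hy).1 hS) he h1 h2
      simp only [rec_eq, this, ite_self]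

theorem Inv.count_le (g : Good K T N) (i : Inv T N allp s R) (hx : x ∈ R) (hm : ∀ z ∈ R, Le x z)
    {y : ℕ × ℕ} (hy : y ∈ T) (h1 : x.1 ∣ y.1) (h2 : y.1 ≠ x.1) (h3 : y.2 ∣ x.2)
    (h4 : (y.1 / x.1).Coprime x.1) : T.count y ≤ (s.C : MT).count y := by
  have a1 := (g.lab x (i.memR hx)).1
  have a2 : x.1 < y.1 := lt_of_le_of_ne (Nat.le_of_dvd (by have := (g.lab y hy).1; omega) h1) h2.symm
  have a3 : y ∉ R := fun h => by
    have := (hm y h).2 (Nat.le_of_dvd (g.cpos (i.memR hx)) h3)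
    omega
  rw [i.split, count_add, count_eq_zero_of_notMem a3, add_zero]
  refine i.C y (fun hp => ?_) fun h => ?_
  · rcases (Nat.dvd_prime hp).1 h1 with h | h <;> omega
  · rw [h] at h1 h4 a2
    generalize x.1 = o at *
    interval_cases o <;> simp_all

theorem Inv.memC (g : Good K T N) (i : Inv T N allp s R) (hx : x ∈ R) (hm : ∀ z ∈ R, Le x z)
    {r : ℕ} (hr : r.Prime) (h1 : r ∣ x.2) (h2 : ¬ r ∣ x.1) : ∃ y ∈ s.C, y.1 = r * x.1 ∧ y.2 ∣ x.2 := by
  obtain ⟨y, hy, h3, h4⟩ := g.up x (i.memR hx) r hr h1 h2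
  have a1 := (g.lab x (i.memR hx)).1
  refine ⟨y, mem_coe.1 (count_pos.1 (lt_of_lt_of_le (count_pos.2 hy)
    (i.count_le g hx hm hy ⟨r, by rw [h3, mul_comm]⟩ ?_ h4 ?_))), h3, h4⟩
  · have := hr.one_lt
    rw [h3]; nlinarith
  · rw [h3, Nat.mul_div_cancel _ (by omega)]
    exact (Nat.Prime.coprime_iff_not_dvd hr).2 h2

theorem upOk_sound (g : Good K T N) (i : Inv T N allp s R) (hx : x ∈ R) (hm : ∀ z ∈ R, Le x z)
    {U : List ℕ} (hU : ∀ r ∈ U, r.Prime) : upOk s.C x.1 x.2 U = true := by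
  have b1 : sect s.C x.1 x.2 = true := by
    simp only [sect, force_eq, rec_eq, Nat.beq_eq, divE]
    split_ifs with h1 h2
    · rfl
    · obtain ⟨S, hS, h3, h4, h5⟩ := g.sect x (i.memR hx) _
        (Nat.div_dvd_of_dvd (Nat.gcd_dvd_left _ _)) h2
      refine subAny_sound _ (le_iff_count.2 fun y => ?_) h3 h4 h5
      by_cases hy : y ∈ S
      · obtain ⟨a1, a2, a3, a4⟩ := h3 y hy
        exact (count_le_of_le y hS).trans (i.count_le g hx hm (mem_of_le hS hy) a1 a2 a3 a4)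
      · simp [count_eq_zero_of_notMem hy]
    · rfl
  cases U with
  | nil => rfl
  | cons a U =>
    change Bool.rec false (sect s.C x.1 x.2) (allL (a :: U) _) = true
    rw [rec_eq, b1, if_pos]
    refine allL_iff.2 fun r hr => ?_
    simp only [rec_eq, dvE]
    split_ifs with h1 h2
    · rfl
    · obtain ⟨y, hy, h3, h4⟩ := i.memC g hx hm (hU r hr) h1 h2
      exact anyL_iff.2 ⟨y, hy, by simp only [Nat.beq_eq, dvF, h3, h4, Nat.mul_eq, if_true]⟩
    · rfl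

theorem sylOk_of {S : Tb} {o c : ℕ}
    (h : ∀ y ∈ S, ¬ y.1 * y.1 ∣ c ∧ (y.1 ∣ o → o = y.1 ∧ c = y.2)) : sylOk S o c = true := by
  induction S with
  | nil => rfl
  | cons y S ih =>
    change Bool.rec (Bool.rec (sylOk S o c) (Bool.rec false (Bool.rec false (sylOk S o c)
      (Nat.beq c y.2)) (Nat.beq o y.1)) (Nat.beq (Nat.mod o y.1) 0)) false
      (Nat.beq (Nat.mod c (y.1 * y.1)) 0) = true
    obtain ⟨h1, h2⟩ := h y (by simp)
    simp only [rec_eq, dvF, Nat.beq_eq, ih fun z hz => h z (by simp [hz]), h1, if_false]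
    by_cases h3 : y.1 ∣ o
    · rw [if_pos h3, if_pos (h2 h3).1, if_pos (h2 h3).2]
    · rw [if_neg h3]

theorem sylOk_sound (g : Good K T N) (i : Inv T N allp s R) (hx : x ∈ R) :
    sylOk s.S x.1 x.2 = true := by
  refine sylOk_of fun y hy => ?_
  obtain ⟨h1, h2, h3⟩ := i.S y hy
  refine ⟨fun h => h3 (h.trans (g.lab x (i.memR hx)).2.2), fun h => ?_⟩
  obtain ⟨z, hz, h4, h5⟩ := g.down x (i.memR hx) _ h2.one_lt h
  rw [g.syl1 y (i.memP h1) z hz h2 h3 h4] at h5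
  have h6 := Nat.le_of_dvd (g.cpos (i.memP h1)) h5
  obtain ⟨h7, h8⟩ := i.lt y h1 x hx
  have := Nat.le_of_dvd (by have := (g.lab x (i.memR hx)).1; omega) h
  have := h8 h6
  omega

/-- Valid lists of obligations. -/
def ObOk (R : MT) (Pi : List ℕ) (Ob : Tb) : Prop :=
  (∀ y ∈ Ob, (∃ z ∈ R, z.1 = y.1 ∧ y.2 ∣ z.2) ∧ Sm Pi y.1) ∧ (Ob.map Prod.fst).Nodup

theorem ObOk.filter {Pi : List ℕ} {Ob : Tb} (h : (Ob.map Prod.fst).Nodup) (p : ℕ × ℕ → Bool)
    (h1 : ∀ y ∈ Ob, p y = true → (∃ z ∈ R, z.1 = y.1 ∧ y.2 ∣ z.2) ∧ Sm Pi y.1) :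
    ObOk R Pi (Ob.filter p) :=
  ⟨fun y hy => h1 y (List.mem_filter.1 hy).1 (List.mem_filter.1 hy).2,
    h.sublist (List.filter_sublist.map _)⟩

theorem ins_sound {Pi : List ℕ} {Ob : Tb} (h : ObOk R Pi Ob) {d c : ℕ}
    (h1 : ∃ z ∈ R, z.1 = d ∧ c ∣ z.2) (h2 : Sm Pi d) :
    ∃ Ob', ObOk R Pi Ob' ∧ ∀ k, ins d c Ob k = k Ob' := by
  refine ⟨_, ?_, fun k => by rw [ins, filtK_eq, List.append_nil]⟩
  obtain ⟨a1, a2⟩ := ObOk.filter (R := R) (Pi := Pi) h.2
    (fun y => Bool.rec true false (Nat.beq y.1 d)) fun y hy _ => h.1 y hy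
  refine ⟨fun y hy => ?_, ?_⟩
  · rcases List.mem_cons.1 hy with rfl | hy
    · exact ⟨h1, h2⟩
    · exact a1 y hy
  · rw [List.map_cons, List.nodup_cons]
    refine ⟨fun hd => ?_, a2⟩
    obtain ⟨y, hy, rfl⟩ := List.mem_map.1 hd
    have := (List.mem_filter.1 hy).2
    simp at this

theorem newOb_sound {Pi Q : List ℕ} (hQ : ∀ r ∈ Q, 1 < r) {o c : ℕ}
    (hd : ∀ d, 1 < d → d < o → d ∣ o → (∃ z ∈ R, z.1 = d ∧ c ∣ z.2) ∧ Sm Pi d) {Ob : Tb}
    (h : ObOk R Pi Ob) : ∃ Ob', ObOk R Pi Ob' ∧ ∀ k, newOb Q o c Ob k = k Ob' := by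
  induction Q generalizing Ob with
  | nil => exact ⟨Ob, h, fun _ => rfl⟩
  | cons r Q ih =>
    have e : ∀ k, newOb (r :: Q) o c Ob k = Bool.rec (newOb Q o c Ob k)
      (ins r c Ob fun l => ins (o / r) c l fun l' => newOb Q o c l' k)
      (Bool.rec (Nat.beq (Nat.mod o r) 0) false (Nat.ble o r)) := fun _ => rfl
    have hQ' : ∀ r ∈ Q, 1 < r := fun r hr => hQ r (by simp [hr])
    have hr := hQ r (by simp)
    by_cases a : r < o ∧ r ∣ o
    · obtain ⟨h1, h2⟩ := hd r hr a.1 a.2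
      obtain ⟨l, hl, e1⟩ := ins_sound h h1 h2
      obtain ⟨u, rfl⟩ := a.2
      have hu : 1 < u := by nlinarith [a.1]
      obtain ⟨h3, h4⟩ := hd u hu (by nlinarith) (Dvd.intro_left _ rfl)
      obtain ⟨l', hl', e2⟩ := ins_sound hl h3 h4
      obtain ⟨l'', hl'', e3⟩ := ih hQ' hl'
      refine ⟨l'', hl'', fun k => ?_⟩
      simp only [e, rec_eq, Nat.ble_eq, not_le.2 a.1, if_false, dvE, a.2, if_true, e1,
        Nat.mul_div_cancel_left u (show 0 < r by omega), e2, e3]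
    · obtain ⟨l, hl, e1⟩ := ih hQ' h
      refine ⟨l, hl, fun k => ?_⟩
      rw [e, rec_eq, if_neg, e1]
      simp only [rec_eq, Nat.ble_eq]
      split_ifs with h1
      · simp
      · rw [dvE]; exact fun h2 => a ⟨by omega, h2⟩

theorem fin_eq (k : St → Bool) (P : Tb) (Pi : List ℕ) (A L c2 c3 I s3 o c : ℕ) (C Ob S : Tb)
    (e2 s6 : Bool) : fin k P Pi A L c2 c3 I s3 o c C Ob S e2 s6 =
      k ⟨(o, c) :: P, Pi, C, Ob, S, e2, s6, A * (c / L.gcd c) - L * (c / L.gcd c) / c,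
        L * (c / L.gcd c), c, o, c2 + (if o = 2 then 1 else 0), c3 + (if o = 3 then 1 else 0),
        I * (c / L.gcd c) + (if o = 2 then L * (c / L.gcd c) / c else 0),
        s3 * (c / L.gcd c) + (if 3 ∣ o then L * (c / L.gcd c) / c else 0)⟩ := by
  simp only [fin, force_eq, rec_eq, dvF, Nat.beq_eq, Nat.add_eq, Nat.mul_eq, Nat.sub_eq, divE,
    Nat.succ_eq_add_one]
  split_ifs <;> first | rfl | omega

end Cfsg.Lib.FewCl
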