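import Cfsg.Agent.FewCl.Good
import Cfsg.Agent.Known.SylowCount
import Cfsg.Agent.Solv.FrobCount
import Mathlib.RingTheory.Radical.NatInt

/-! The class table of a finite group: labels of element orders and centraliser orders. -/

namespace Cfsg.Lib.FewCl

open Subgroup Finset
open scoped Classical

variable {G : Type*} [Group G]

/-- The label of the order of `g`. -/
noncomputable def lb (g : G) : ℕ := (orderOf g).gcd (2 * UniqueFactorizationMonoid.radical (Nat.card G))

/-- The centraliser order. -/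
noncomputable def cc (g : G) : ℕ := Nat.card (centralizer ({g} : Set G))

/-- The entry of `g`. -/
noncomputable def ent (g : G) : ℕ × ℕ := (lb g, cc g)

/-- A representative of a class. -/
noncomputable def rp (C : ConjClasses G) : G := C.exists_rep.choose

theorem mk_rp (C : ConjClasses G) : ConjClasses.mk (rp C) = C := C.exists_rep.choose_spec

theorem isConj_rp (g : G) : IsConj g (rp (ConjClasses.mk g)) :=
  ConjClasses.mk_eq_mk_iff_isConj.1 (mk_rp _).symm

theorem lb_dvd (g : G) : lb g ∣ orderOf g := Nat.gcd_dvd_left _ _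

theorem lb_congr {g h : G} (e : orderOf g = orderOf h) : lb g = lb h := by rw [lb, lb, e]

theorem orderOf_conj {g h : G} (e : IsConj g h) : orderOf g = orderOf h := by
  obtain ⟨c, rfl⟩ := isConj_iff.1 e
  exact ((MulAut.conj c).orderOf_eq g).symm

theorem ne_one_conj {g h : G} (e : IsConj g h) : g ≠ 1 ↔ h ≠ 1 := by
  rw [Ne, Ne, ← orderOf_eq_one_iff, ← orderOf_eq_one_iff (x := h), orderOf_conj e]

theorem not_eight_dvd (g : G) : ¬ 8 ∣ lb g := fun h => by
  have h1 : 2 * (2 * 2) ∣ 2 * UniqueFactorizationMonoid.radical (Nat.card G) := h.trans (Nat.gcd_dvd_right _ _)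
  simpa using UniqueFactorizationMonoid.squarefree_radical 2 (Nat.dvd_of_mul_dvd_mul_left two_pos h1)

theorem eq_two_of_sq (g : G) {r : ℕ} (hr : r.Prime) (h : r * r ∣ lb g) : r = 2 := by
  by_contra h2
  have h1 : (r * r).Coprime 2 := Nat.Coprime.mul_left ((Nat.coprime_primes hr Nat.prime_two).2 h2)
    ((Nat.coprime_primes hr Nat.prime_two).2 h2)
  exact hr.ne_one (Nat.isUnit_iff.1 (UniqueFactorizationMonoid.squarefree_radical r
    (h1.dvd_of_dvd_mul_left (h.trans (Nat.gcd_dvd_right _ _)))))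

theorem lb_mul {g y : G} (h : Commute g y) (hc : (orderOf g).Coprime (orderOf y)) :
    lb (g * y) = lb g * lb y := by
  rw [lb, h.orderOf_mul_eq_mul_orderOf_of_coprime hc, hc.mul_gcd, lb, lb]

theorem lb_of_dvd {g h : G} (e : orderOf h ∣ lb g) : lb h = orderOf h :=
  Nat.gcd_eq_left (e.trans (Nat.gcd_dvd_right _ _))

theorem cent_le_of_mem {g h : G} (e : h ∈ zpowers g) :
    centralizer ({g} : Set G) ≤ centralizer ({h} : Set G) := fun x hx => by
  obtain ⟨k, rfl⟩ := e
  rw [mem_centralizer_singleton_iff] at hx ⊢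
  exact (Commute.zpow_right hx k).eq

variable [Finite G]

theorem ent_conj {g h : G} (e : IsConj g h) : ent g = ent h :=
  Prod.ext (lb_congr (orderOf_conj e)) (Known.SC.card_centralizer_eq_of_isConj e)

theorem cc_pos (g : G) : 0 < cc g := Nat.card_pos

theorem cc_dvd (g : G) : cc g ∣ Nat.card G := card_subgroup_dvd_card _

theorem ord_dvd_cc (g : G) : orderOf g ∣ cc g :=
  Subgroup.orderOf_dvd_natCard _ (mem_centralizer_singleton_iff.2 rfl)

theorem dvd_lb {g : G} {r : ℕ} (hr : r.Prime) (h : r ∣ orderOf g) : r ∣ lb g :=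
  Nat.dvd_gcd h (((UniqueFactorizationMonoid.dvd_radical_iff_of_irreducible hr
    Nat.card_pos.ne').2 (h.trans (orderOf_dvd_natCard g))).mul_left _)

theorem one_lt_lb {g : G} (h : g ≠ 1) : 1 < lb g := by
  obtain ⟨r, hr, hd⟩ := Nat.exists_prime_and_dvd (mt orderOf_eq_one_iff.1 h)
  exact lt_of_lt_of_le hr.one_lt (Nat.le_of_dvd (Nat.gcd_pos_of_pos_left _ (orderOf_pos g))
    (dvd_lb hr hd))

theorem coprime_ord {g : G} {n : ℕ} (h : n.Coprime (lb g)) : n.Coprime (orderOf g) :=
  Nat.coprime_of_dvd fun _ hr h1 h2 => hr.ne_one (Nat.eq_one_of_dvd_coprimes h h1 (dvd_lb hr h2))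

theorem lb_prime {g : G} {r : ℕ} (hr : r.Prime) (h : orderOf g = r) : lb g = r :=
  Nat.dvd_antisymm (h ▸ lb_dvd g) (dvd_lb hr (h ▸ dvd_rfl))

theorem ord_eq_pow {g : G} {r : ℕ} (hr : r.Prime) (h : lb g = r) : ∃ k, orderOf g = r ^ (k + 1) := by
  have h1 := Nat.eq_prime_pow_of_unique_prime_dvd (p := r) (orderOf_pos g).ne' fun {s} hs hd =>
    (Nat.prime_dvd_prime_iff_eq hs hr).1 (h ▸ dvd_lb hs hd)
  rcases hl : (orderOf g).primeFactorsList.length with _ | k
  · rw [hl, pow_zero] at h1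
    have := lb_dvd g
    rw [h1, h] at this
    exact absurd (Nat.dvd_one.1 this) hr.ne_one
  · exact ⟨k, hl ▸ h1⟩

theorem ord_eq {g : G} {r : ℕ} (hr : r.Prime) (h : lb g = r) (h2 : ¬ r * r ∣ orderOf g) :
    orderOf g = r := by
  obtain ⟨k, hk⟩ := ord_eq_pow hr h
  rcases k with _ | k
  · simpa using hk
  · exact absurd ⟨r ^ k, by rw [hk]; ring⟩ h2

theorem ord_two {g : G} (h : lb g = 2) : orderOf g = 2 := by
  refine ord_eq Nat.prime_two h fun h2 => ?_
  have h3 : 2 * 2 ∣ lb g := Nat.dvd_gcd h2 (Nat.mul_dvd_mul_left 2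
    ((UniqueFactorizationMonoid.dvd_radical_iff_of_irreducible Nat.prime_two Nat.card_pos.ne').2
      ((dvd_trans (Dvd.intro _ rfl) h2).trans (orderOf_dvd_natCard g))))
  rw [h] at h3
  norm_num at h3

theorem lb_of_pow {g : G} (h1 : g ≠ 1) {r a : ℕ} (hr : r.Prime) (h2 : r ≠ 2) (h : g ^ r ^ a = 1) :
    lb g = r := by
  obtain ⟨i, -, hi⟩ := (Nat.dvd_prime_pow hr).1 ((lb_dvd g).trans (orderOf_dvd_of_pow_eq_one h))
  have h3 := one_lt_lb h1
  rcases i with _ | _ | i
  · simp [hi] at h3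
  · simpa using hi
  · exact absurd (eq_two_of_sq g hr ⟨r ^ i, by rw [hi]; ring⟩) h2

theorem mem_zpowers_mul {g y : G} (h : Commute g y) {n : ℕ} (hy : y ^ n = 1)
    (hc : n.Coprime (orderOf g)) : g ∈ zpowers (g * y) := by
  have h1 : g ∈ zpowers (g ^ n) := mem_zpowers_pow_iff.2 hc
  have h2 : g ^ n ∈ zpowers (g * y) := by
    rw [← mul_one (g ^ n), ← hy, ← h.mul_pow]; exact npow_mem_zpowers _ _
  exact zpowers_le.2 h2 h1

theorem sq_dvd_cc {a : G} {q : ℕ} (hq : q.Prime) (e : orderOf a = q) (h : q * q ∣ Nat.card G) :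
    q * q ∣ cc a := by
  have := Fact.mk hq
  have h0 : Nat.card (zpowers a) = q := by rw [Nat.card_zpowers, e]
  have h1 := Known.SC.relIndex_centralizer_dvd_sub_one hq (zpowers a) h0
  rw [Known.SC.centralizer_zpowers] at h1
  have h2 := Sylow.prime_pow_dvd_card_normalizer (p := q) (n := 1) (by rwa [one_add_one_eq_two, sq])
    (H := zpowers a) (by rw [h0, pow_one])
  rw [Known.SC.card_normalizer_eq_mul, Known.SC.centralizer_zpowers, one_add_one_eq_two, sq] at h2
  have h3 : q.Coprime (q - 1) := (Nat.coprime_self_sub_right hq.one_le).2 (Nat.coprime_one_right q)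
  exact (Nat.Coprime.mul_left (h3.coprime_dvd_right h1) (h3.coprime_dvd_right h1)).dvd_of_dvd_mul_right h2

omit [Finite G] in
theorem card_class [Fintype G] (g : G) : (univ.filter fun h => IsConj g h).card = Nat.card G / cc g := by
  rw [← Known.SC.card_isConj_mul_card_centralizer g, cc, Nat.mul_div_cancel _ Nat.card_pos,
    Nat.card_eq_fintype_card, Fintype.card_subtype]

omit [Finite G]

variable [Fintype G]

/-- The classes whose representatives satisfy `p`. -/
noncomputable def CS (p : G → Prop) : Finset (ConjClasses G) := univ.filter fun C => p (rp C)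

/-- The entries of the classes whose representatives satisfy `p`. -/
noncomputable def TS (p : G → Prop) : MT := (CS p).val.map fun C => ent (rp C)

variable (G) in
/-- The table of `G`. -/
noncomputable def tab : MT := TS fun g : G => g ≠ 1

theorem mem_CS {p : G → Prop} {C : ConjClasses G} : C ∈ CS p ↔ p (rp C) := by simp [CS]

theorem sum_classes {p : G → Prop} [DecidablePred p] (hp : ∀ g h, IsConj g h → p g → p h) (w : ℕ × ℕ → ℕ) :
    ∑ g with p g, w (ent g) = ∑ C ∈ CS p, Nat.card G / cc (rp C) * w (ent (rp C)) := by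
  rw [← sum_fiberwise_of_maps_to (s := univ.filter p) (t := CS p) (g := ConjClasses.mk)
    fun g hg => mem_CS.2 (hp _ _ (isConj_rp g) (mem_filter.1 hg).2)]
  refine sum_congr rfl fun C hC => ?_
  have e : (univ.filter p).filter (fun g => ConjClasses.mk g = C) =
      univ.filter fun h => IsConj (rp C) h := by
    ext g
    simp only [mem_filter, mem_univ, true_and]
    refine ⟨fun h => ConjClasses.mk_eq_mk_iff_isConj.1 ((mk_rp C).trans h.2.symm), fun h =>
      ⟨hp _ _ h (mem_CS.1 hC), (ConjClasses.mk_eq_mk_iff_isConj.2 h).symm.trans (mk_rp C)⟩⟩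
  rw [e, sum_congr rfl fun h hh => congrArg w (ent_conj (mem_filter.1 hh).2).symm, sum_const,
    card_class, smul_eq_mul]

theorem TS_mono {p q : G → Prop} (h : ∀ g, p g → q g) : TS p ≤ TS q :=
  Multiset.map_le_map (val_le_iff.2 fun _ hC => mem_filter.2 ⟨mem_univ _, h _ (mem_filter.1 hC).2⟩)

theorem filter_tab (q : ℕ × ℕ → Prop) [DecidablePred q] :
    (tab G).filter q = TS fun g : G => g ≠ 1 ∧ q (ent g) := by
  rw [tab, TS, TS, Multiset.filter_map, CS, CS, ← filter_val, filter_filter]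
  congr

theorem mem_TS {p : G → Prop} (hp : ∀ g h, IsConj g h → p g → p h) {x : ℕ × ℕ} :
    x ∈ TS p ↔ ∃ g, p g ∧ ent g = x := by
  simp only [TS, CS, Multiset.mem_map, mem_val, mem_filter, mem_univ, true_and]
  exact ⟨fun ⟨C, h⟩ => ⟨_, h⟩, fun ⟨g, h1, h2⟩ =>
    ⟨_, hp _ _ (isConj_rp g) h1, (ent_conj (isConj_rp g)).symm.trans h2⟩⟩

theorem mem_tab {x : ℕ × ℕ} : x ∈ tab G ↔ ∃ g : G, g ≠ 1 ∧ ent g = x :=
  mem_TS fun _ _ h => (ne_one_conj h).1

theorem ent_mem {g : G} (h : g ≠ 1) : ent g ∈ tab G := mem_tab.2 ⟨g, h, rfl⟩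

theorem conj_inv (q : ℕ × ℕ → Prop) (g h : G) (e : IsConj g h) (hg : g ≠ 1 ∧ q (ent g)) :
    h ≠ 1 ∧ q (ent h) := ⟨(ne_one_conj e).1 hg.1, ent_conj e ▸ hg.2⟩

theorem sm_tab (q : ℕ × ℕ → Prop) [DecidablePred q] :
    sm (tab G) (Nat.card G) q = (univ.filter fun g : G => g ≠ 1 ∧ q (ent g)).card := by
  rw [sm, filter_tab, card_eq_sum_ones, sum_classes (conj_inv q) fun _ => 1, TS, Multiset.map_map]
  simp only [mul_one]
  rfl

theorem card_tab (q : ℕ × ℕ → Prop) [DecidablePred q] :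
    ((tab G).filter q).card * Nat.card G = ∑ g : G with g ≠ 1 ∧ q (ent g), cc g := by
  have := sum_classes (G := G) (conj_inv q) Prod.snd
  simp only [ent, Nat.div_mul_cancel (cc_dvd _), sum_const, smul_eq_mul] at this
  rw [filter_tab, TS, Multiset.card_map, card_val]
  exact this.symm

theorem cn_eq (T : MT) (d : ℕ) : cn T d = (T.filter fun x => x.1 = d).card := by
  rw [cn, Multiset.count_map]
  simp only [eq_comm]

theorem cn_tab (d : ℕ) : cn (tab G) d = (CS fun g : G => g ≠ 1 ∧ lb g = d).card := by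
  rw [cn_eq, filter_tab, TS, Multiset.card_map, card_val]; rfl

theorem cn_le_one {d : ℕ} : cn (tab G) d ≤ 1 ↔
    ∀ g h : G, g ≠ 1 → h ≠ 1 → lb g = d → lb h = d → IsConj g h := by
  rw [cn_tab, card_le_one]
  simp only [CS, mem_filter, mem_univ, true_and]
  refine ⟨fun H g h h1 h2 h3 h4 => ConjClasses.mk_eq_mk_iff_isConj.1 (H _
    (conj_inv (fun x => x.1 = d) _ _ (isConj_rp g) ⟨h1, h3⟩) _
    (conj_inv (fun x => x.1 = d) _ _ (isConj_rp h) ⟨h2, h4⟩)), fun H a ha b hb => ?_⟩
  rw [← mk_rp a, ← mk_rp b]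
  exact ConjClasses.mk_eq_mk_iff_isConj.2 (H _ _ ha.1 hb.1 ha.2 hb.2)

theorem card_tab_add : (tab G).card + 1 = Nat.card (ConjClasses G) := by
  rw [tab, TS, Multiset.card_map, card_val, Nat.card_eq_fintype_card, ← card_univ,
    ← card_filter_add_card_filter_not (s := univ) fun C : ConjClasses G => rp C ≠ 1, CS]
  refine congrArg₂ _ (by congr) (card_eq_one.2 ⟨ConjClasses.mk 1, ?_⟩).symm
  ext C
  simp only [mem_filter, mem_univ, true_and, not_not, mem_singleton]
  exact ⟨fun h => by rw [← mk_rp C, h], fun h => h ▸ isConj_one_right.1 (isConj_rp 1)⟩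

theorem card_one_add {p q : G → Prop} [DecidablePred p] [DecidablePred q] (h1 : p 1) (h : ∀ g, g ≠ 1 → (p g ↔ q g)) :
    (univ.filter p).card = 1 + (univ.filter fun g => g ≠ 1 ∧ q g).card := by
  rw [add_comm, ← card_insert_of_notMem (a := 1) (by simp)]
  congr 1
  ext g
  by_cases hg : g = 1
  · simp [hg, h1]
  · simp [hg, h g hg]

end Cfsg.Lib.FewCl
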